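import Cfsg.Agent.Dade.Step
import Cfsg.Agent.Block.Fong

/-!
# Lifts pass to the Glauberman correspondent under an abelian `p`-group
-/

set_option autoImplicit false

open scoped MonoidAlgebra
open Subgroup Cfsg.Lib.Block Cfsg.Lib.Block.Pair

namespace Cfsg.Lib.Dade

section General

variable {k G E : Type*} [Field k] [Group G] [Group E] {π : E →* G} {K : Subgroup G} {e : k[G]}
  {s s' : E → k[G]}

theorem Lf.comp {E' : Type*} [Group E'] (h : Lf π K e s) (f : E' →* E) :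
    Lf (π.comp f) K e fun γ => s (f γ) :=
  ⟨fun _ => h.norm _, fun _ => h.stab _, fun _ => h.supp _, by rw [map_one, h.one],
    fun γ δ => by rw [map_mul, h.mul], fun _ => h.impl _⟩

theorem Lf.emb {G' : Type*} [Group G'] (h : Lf π K e s) {ψ : G →* G'}
    (hψ : Function.Injective ψ) : Lf (ψ.comp π) (K.map ψ) (emb ψ e) fun γ => emb ψ (s γ) :=
  ⟨fun γ => (mem_normalizer_map_iff hψ).2 (h.norm γ), fun γ => (mem_stab_emb hψ).2 (h.stab γ),
    fun γ => (suppOn_emb_iff hψ).2 (h.supp γ), by rw [h.one], fun γ δ => by rw [h.mul, map_mul],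
    fun γ a ha => by
      obtain ⟨a, rfl⟩ := exists_emb_eq_of_map hψ ha
      rw [← map_mul, h.impl γ a ((suppOn_emb_iff hψ).1 ha), map_mul, MonoidHom.comp_apply, cj_emb]⟩

theorem Lf.mul_e (h : Lf π K e s) (γ : E) : s γ * e = s γ := by
  conv_rhs => rw [← mul_one γ, h.mul, h.one]

/-- Two lifts differ by a linear character. -/
theorem Lf.exists_ratio (h : Lf π K e s) (h' : Lf π K e s') (D : MD K e) :
    ∃ ν : E →* kˣ, ∀ γ, s γ = (ν γ : k) • s' γ := by
  have h1 : ∀ γ, ∃ c : k, h.rep D γ = c • h'.rep D γ := fun γ => by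
    obtain ⟨c, hc⟩ := D.exists_smul ((h'.supp γ⁻¹).mul (h.supp γ)) fun a ha => by
      rw [mul_assoc, h.impl γ a ha, ← mul_assoc, h'.impl _ _ (suppOn_cj ha (h.norm γ)), map_inv,
        cj_inv_cj, mul_assoc]
    rw [D.Φ_mul (h'.supp _) (h.supp _)] at hc
    change h'.rep D γ⁻¹ * h.rep D γ = _ at hc
    exact ⟨c, by rw [← mul_one (h'.rep D γ), ← mul_smul_comm, ← hc, ← mul_assoc, ← map_mul,
      mul_inv_cancel, map_one, one_mul]⟩
  choose c hc using h1
  have h2 : ∀ γ (a b : k), a • h'.rep D γ = b • h'.rep D γ → a = b := fun γ a b hab => by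
    have := congrArg (· * h'.rep D γ⁻¹) hab
    simp only [smul_mul_assoc, ← map_mul, mul_inv_cancel, map_one] at this
    simpa using congrFun (congrFun this D.i₀) D.i₀
  let c' : E →* k :=
    { toFun := c
      map_one' := h2 1 _ _ (by rw [← hc, map_one, map_one, one_smul])
      map_mul' := fun γ δ => h2 (γ * δ) _ _ (by
        rw [← hc, map_mul, map_mul, hc, hc, smul_mul_smul_comm]) }
  refine ⟨c'.toHomUnits, fun γ => ?_⟩
  have h3 := congrArg D.Ψ (hc γ)
  rw [map_smul] at h3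
  change D.Ψ (D.Φ (s γ)) = c γ • D.Ψ (D.Φ (s' γ)) at h3
  rwa [D.ΨΦ _ (h.supp γ), D.ΨΦ _ (h'.supp γ), h.mul_e, h'.mul_e] at h3

end General

variable {G E : Type*} [Group G] [Finite G] [Group E] {M : Ideal AlgInt} {p : ℕ} [hp : Fact p.Prime]

omit hp in
theorem nonempty_md_kM (hM : IsPModular p M) {K : Subgroup G} (hK : ¬ p ∣ Nat.card K)
    {e : (kM M)[G]} (he : IsPrim K K e) : Nonempty (MD K e) := by
  have := charP_kM hM
  exact nonempty_md (fun h => hK ((CharP.cast_eq_zero_iff _ p _).1 h)) he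

theorem exists_lf_br (hM : IsPModular p M) {π : E →* G} {P : Subgroup E} [hPn : P.Normal]
    [Finite P] (hP : IsPGroup p P) (hab : ∀ x ∈ P, ∀ y ∈ P, x * y = y * x) (n : ℕ) :
    ∀ {K : Subgroup G}, Nat.card K = n → ¬ p ∣ Nat.card K → ∀ {e : (kM M)[G]}, IsPrim K K e →
      ∀ {s : E → (kM M)[G]}, Lf π K e s →
      ∃ s₁, Lf π (K ⊓ centralizer (P.map π : Set G)) (br (P.map π) e) s₁ ∧
        ∀ γ (z : kM M), π γ ∈ K → (∀ x ∈ P, γ * x = x * γ) →
          s γ = z • (MonoidAlgebra.single (π γ) 1 * e) →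
          s₁ γ = z • (MonoidAlgebra.single (π γ) 1 * br (P.map π) e) := by
  induction n using Nat.strong_induction_on with
  | _ n ih =>
  intro K hn hK e he s h
  have := charP_kM hM
  by_cases hc : K ≤ centralizer (P.map π : Set G)
  · rw [inf_eq_left.2 hc, br_eq_self (he.suppOn.mono hc)]
    exact ⟨s, h, fun γ z _ _ hz => hz⟩
  let R : Subgroup E :=
    { carrier := {x | x ∈ P ∧ π (x ^ p) ∈ centralizer (K : Set G)}
      one_mem' := ⟨one_mem _, by simp⟩
      mul_mem' := fun {x y} hx hy => ⟨mul_mem hx.1 hy.1, by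
        rw [(show Commute x y from hab x hx.1 y hy.1).mul_pow, map_mul]; exact mul_mem hx.2 hy.2⟩
      inv_mem' := fun {x} hx => ⟨inv_mem hx.1, by rw [inv_pow, map_inv]; exact inv_mem hx.2⟩ }
  have hRP : R ≤ P := fun x hx => hx.1
  have hRn : R.Normal := ⟨fun x hx g => ⟨hPn.conj_mem x hx.1 g, by
    rw [conj_pow, map_mul, map_mul, map_inv]
    exact (mem_normalizer_iff.1 (normalizer_le_normalizer_centralizer K (h.norm g)) _).1 hx.2⟩⟩
  have : Finite R := Finite.of_injective _ (inclusion_injective hRP)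
  have hR : IsPGroup p R := hP.to_le hRP
  have hlt : K ⊓ centralizer (R.map π : Set G) < K := by
    refine lt_of_le_of_ne inf_le_left fun h1 => hc ?_
    rw [inf_eq_left] at h1
    have key : ∀ (m : ℕ) (x : E), x ∈ P → x ^ p ^ m = 1 → π x ∈ centralizer (K : Set G) := by
      intro m
      induction m with
      | zero => intro x _ hx; rw [pow_zero, pow_one] at hx; rw [hx, map_one]; exact one_mem _
      | succ m ihm =>
        intro x hx hxm g hg
        have h2 := ihm (x ^ p) (pow_mem hx p) (by rw [← pow_mul, ← pow_succ', hxm])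
        exact (h1 hg (π x) ⟨x, ⟨hx, h2⟩, rfl⟩).symm
    rintro g hg _ ⟨x, hx, rfl⟩
    obtain ⟨m, hm⟩ := hP ⟨x, hx⟩
    exact (key m x hx (congrArg Subtype.val hm) g hg).symm
  have hK₁ : ¬ p ∣ Nat.card ↥(K ⊓ centralizer (R.map π : Set G)) := fun h1 =>
    hK (h1.trans (card_dvd_of_le inf_le_left))
  have he₁ := he.isPrim_br_coprime hM hK (hR.map π) (by rintro _ ⟨x, -, rfl⟩; exact h.norm x)
    (by rintro _ ⟨x, -, rfl⟩; exact h.stab x)
  obtain ⟨D⟩ := nonempty_md_kM hM hK he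
  obtain ⟨D₁⟩ := nonempty_md_kM hM hK₁ he₁
  obtain ⟨s₁, h₁, t₁⟩ := step h D hR (fun x hx y hy => hab x hx.1 y hy.1) (fun x hx => hx.2)
    rfl rfl D₁
  obtain ⟨s₂, h₂, t₂⟩ := ih _ (hn ▸ card_lt_of_lt hlt) rfl hK₁ he₁ h₁
  rw [inf_centralizer_inf_centralizer K (map_mono hRP), br_br_of_le (map_mono hRP)] at h₂
  rw [br_br_of_le (map_mono hRP)] at t₂
  refine ⟨s₂, h₂, fun γ z hγ hγc hz => ?_⟩
  have h3 : π γ ∈ K ⊓ centralizer (R.map π : Set G) := ⟨hγ, by
    rintro _ ⟨x, hx, rfl⟩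
    rw [← map_mul, ← hγc x hx.1, map_mul]⟩
  exact t₂ γ z h3 hγc (t₁ γ z h3 (fun x hx => hγc x hx.1) hz)

end Cfsg.Lib.Dade
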