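import Mathlib.Algebra.GCDMonoid.Finset
import Mathlib.RingTheory.Localization.FractionRing
import Mathlib.RingTheory.Localization.Integer
import Mathlib.LinearAlgebra.Matrix.ToLin
import Mathlib.LinearAlgebra.Matrix.Determinant.Basic
import Mathlib.LinearAlgebra.Basis.VectorSpace
import Mathlib.LinearAlgebra.FiniteDimensional.Lemmas

/-!
# The determinant of a semilinear action on the kernel of a matrix over a factorial ring
-/

set_option autoImplicit false

open Module Matrix

namespace Cfsg.Lib.Dade

theorem det_mul_eq_sum {R κ n : Type*} [CommRing R] [Fintype κ] [DecidableEq κ] [Fintype n]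
    (B : Matrix κ n R) (L : Matrix n κ R) :
    (B * L).det = ∑ J : κ → n, (∏ c, L (J c) c) * (B.submatrix id J).det := by
  simp only [det_apply', mul_apply, Finset.prod_univ_sum, Finset.mul_sum, Fintype.piFinset_univ,
    submatrix_apply, id]
  rw [Finset.sum_comm]
  refine Finset.sum_congr rfl fun J _ => Finset.sum_congr rfl fun s _ => ?_
  rw [Finset.prod_mul_distrib]; ring

/-- A tensor power of a matrix. -/
def tp {R n : Type*} [CommRing R] (κ : Type*) [Fintype κ] (X : Matrix n n R) :
    Matrix (κ → n) (κ → n) R := Matrix.of fun I J => ∏ c, X (I c) (J c)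

theorem tp_mul {R n : Type*} [CommRing R] [Fintype n] (κ : Type*) [Fintype κ] [DecidableEq κ]
    (X Y : Matrix n n R) : tp κ (X * Y) = tp κ X * tp κ Y := by
  ext I L
  simp only [tp, of_apply, mul_apply, Finset.prod_univ_sum, Fintype.piFinset_univ,
    Finset.prod_mul_distrib]

theorem tp_smul_one {R n : Type*} [CommRing R] [DecidableEq n] (κ : Type*) [Fintype κ] (z : R) :
    tp κ (z • (1 : Matrix n n R)) = z ^ Fintype.card κ • 1 := by
  ext I J
  simp only [tp, of_apply, Matrix.smul_apply, smul_eq_mul, Finset.prod_mul_distrib,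
    Finset.prod_const, Finset.card_univ, one_apply]
  congr 1
  split_ifs with h
  · simp [h]
  · obtain ⟨c, hc⟩ := Function.ne_iff.1 h
    exact Finset.prod_eq_zero (Finset.mem_univ c) (if_neg hc)

theorem exists_char {k A F : Type*} [Field k] [CommRing A] [IsDomain A] [IsGCDMonoid A]
    [Algebra k A] (hU : ∀ a : A, IsUnit a → ∃ c : k, a = algebraMap k A c) [Field F] [Algebra A F]
    [IsFractionRing A F] {n : Type*} [Fintype n] [DecidableEq n] {E : Type*} [Group E]
    (σ : E →* (A ≃ₐ[k] A)) (φ : E →* Matrix n n k) (T : Matrix n n A)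
    (hT : ∀ g, (φ g).map (algebraMap k A) * T.map (σ g) = T * (φ g).map (algebraMap k A)) :
    ∃ ν : E →* kˣ, ∀ g (z : k), σ g = 1 → φ g = z • 1 →
      (ν g : k) = z ^ finrank F (LinearMap.ker (T.map (algebraMap A F)).mulVecLin) := by
  classical
  obtain ⟨_⟩ : Nonempty (NormalizedGCDMonoid A) := inferInstance
  have hinj : Function.Injective (algebraMap A F) := IsFractionRing.injective A F
  set L := LinearMap.ker (T.map (algebraMap A F)).mulVecLin with hL
  set κ := finrank F L
  let b := Module.finBasis F L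
  obtain ⟨d, hd⟩ := IsLocalization.exist_integer_multiples_of_finite (nonZeroDivisors A)
    (fun x : Fin κ × n => (b x.1 : n → F) x.2)
  choose B₀ hB₀ using hd
  let B : Matrix (Fin κ) n A := Matrix.of fun a i => B₀ (a, i)
  have hd0 : algebraMap A F d ≠ 0 := by
    rw [Ne, map_eq_zero_iff _ hinj]; exact nonZeroDivisors.coe_ne_zero d
  have hB : ∀ a, (fun i => algebraMap A F (B a i)) = algebraMap A F d • (b a : n → F) := by
    intro a; funext i
    rw [Pi.smul_apply, smul_eq_mul, ← Algebra.smul_def]; exact hB₀ (a, i)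
  have hmem : ∀ v : n → A, (fun i => algebraMap A F (v i)) ∈ L ↔ T *ᵥ v = 0 := by
    intro v
    rw [hL, LinearMap.mem_ker, mulVecLin_apply]
    constructor
    · intro h; funext i
      apply hinj
      rw [RingHom.map_mulVec]; simpa [Function.comp_def] using congrFun h i
    · intro h; funext i
      have := RingHom.map_mulVec (algebraMap A F) T v i
      rw [h] at this
      simpa [Function.comp_def] using this.symm
  have hBT : ∀ a, T *ᵥ B a = 0 := fun a => (hmem _).1 (by
    rw [hB]; exact L.smul_mem _ (b a).2)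
  let Δ : (Fin κ → n) → A := fun J => (B.submatrix id J).det
  have hΔ : ∃ J, Δ J ≠ 0 := by
    have hli : LinearIndependent F (B.map (algebraMap A F)).row := by
      have h1 : LinearIndependent F fun a => (b a : n → F) :=
        b.linearIndependent.map' L.subtype L.ker_subtype
      have h2 := h1.units_smul fun _ => Units.mk0 _ hd0
      convert h2 using 1
      funext a
      exact hB a
    obtain ⟨g, hg⟩ := (B.map (algebraMap A F))ᵀ.mulVecLin.exists_leftInverse_of_injective (by
      rw [LinearMap.ker_eq_bot, mulVecLin_transpose]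
      exact Matrix.vecMul_injective_iff.2 hli)
    have h3 : B.map (algebraMap A F) * (LinearMap.toMatrix' g)ᵀ = 1 := by
      have := congrArg LinearMap.toMatrix' hg
      rw [LinearMap.toMatrix'_comp, LinearMap.toMatrix'_id, ← Matrix.toLin'_apply',
        LinearMap.toMatrix'_toLin'] at this
      rw [← transpose_one, ← this, transpose_mul, transpose_transpose]
    by_contra! h0
    have := det_mul_eq_sum (B.map (algebraMap A F)) (LinearMap.toMatrix' g)ᵀ
    rw [h3, det_one, Finset.sum_eq_zero fun J _ => by
      rw [submatrix_map, ← RingHom.mapMatrix_apply, ← RingHom.map_det,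
        show (B.submatrix id J).det = 0 from h0 J, map_zero, mul_zero]] at this
    exact one_ne_zero this
  let act : E → ((Fin κ → n) → A) → (Fin κ → n) → A := fun g ω =>
    tp (Fin κ) ((φ g).map (algebraMap k A)) *ᵥ fun J => σ g (ω J)
  have act_smul : ∀ g (a : A) ω, act g (a • ω) = σ g a • act g ω := by
    intro g a ω
    simp only [act, Pi.smul_apply, smul_eq_mul, map_mul]
    exact mulVec_smul _ (σ g a) _
  have act_mul : ∀ g h ω, act (g * h) ω = act g (act h ω) := by
    intro g h ω
    simp only [act, map_mul, Matrix.map_mul, tp_mul, ← mulVec_mulVec]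
    congr 1
    funext I
    simp [mulVec, dotProduct, tp]
  have act_scalar : ∀ g (z : k), σ g = 1 → φ g = z • 1 → ∀ ω,
      act g ω = algebraMap k A (z ^ κ) • ω := by
    intro g z h1 h2 ω
    have : (φ g).map (algebraMap k A) = algebraMap k A z • 1 := by
      rw [h2]; ext i j; simp [one_apply, apply_ite (algebraMap k A)]
    simp only [act, this, tp_smul_one, h1, Fintype.card_fin, map_pow, smul_mulVec, one_mulVec]
    rfl
  have act_Δ : ∀ g, ∃ δ : F, ∀ I, algebraMap A F (act g Δ I) = δ * algebraMap A F (Δ I) := by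
    intro g
    let B' : Matrix (Fin κ) n A := B.map (σ g) * ((φ g).map (algebraMap k A))ᵀ
    have h1 : ∀ a, T *ᵥ B' a = 0 := by
      intro a
      have : B' a = (φ g).map (algebraMap k A) *ᵥ fun i => σ g (B a i) := by
        funext i; simp [B', mul_apply, mulVec, dotProduct, mul_comm]
      rw [this, mulVec_mulVec, ← hT, ← mulVec_mulVec]
      have h2 : T.map (σ g) *ᵥ (fun i => σ g (B a i)) = 0 := by
        funext i
        have := RingHom.map_mulVec (σ g : A →+* A) T (B a) i
        rw [hBT] at this
        simpa [Function.comp_def] using this.symm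
      rw [h2, mulVec_zero]
    let H : Matrix (Fin κ) (Fin κ) F := Matrix.of fun a c =>
      b.repr ⟨_, (hmem _).2 (h1 a)⟩ c * (algebraMap A F d)⁻¹
    have h2 : B'.map (algebraMap A F) = H * B.map (algebraMap A F) := by
      ext a i
      have h3 := congrArg (fun v : L => (v : n → F) i) (b.sum_repr ⟨_, (hmem _).2 (h1 a)⟩)
      simp only [Submodule.coe_sum, Submodule.coe_smul, Finset.sum_apply, Pi.smul_apply,
        smul_eq_mul] at h3
      rw [map_apply, ← h3, mul_apply]
      refine Finset.sum_congr rfl fun c _ => ?_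
      have h4 := congrFun (hB c) i
      rw [Pi.smul_apply, smul_eq_mul] at h4
      rw [map_apply, h4]
      change _ = _ * (algebraMap A F d)⁻¹ * _
      rw [mul_assoc, inv_mul_cancel_left₀ hd0]
    refine ⟨H.det, fun I => ?_⟩
    have h3 : act g Δ I = (B'.submatrix id I).det := by
      have : B'.submatrix id I =
          B.map (σ g) * (((φ g).map (algebraMap k A))ᵀ).submatrix id I := by
        ext a c; simp [B', mul_apply]
      rw [this, det_mul_eq_sum]
      simp only [act, mulVec, dotProduct, tp, of_apply, Δ, submatrix_apply, id, transpose_apply]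
      refine Finset.sum_congr rfl fun J _ => ?_
      congr 1
      rw [submatrix_map]
      exact RingHom.map_det (σ g : A →+* A) _
    rw [h3, RingHom.map_det, RingHom.map_det, RingHom.mapMatrix_apply, RingHom.mapMatrix_apply,
      ← submatrix_map, ← submatrix_map, h2, ← det_mul]
    congr 1
  obtain ⟨J₀, hJ₀⟩ := hΔ
  obtain ⟨ω, hω, hω1⟩ := Finset.extract_gcd (s := Finset.univ) Δ ⟨J₀, Finset.mem_univ _⟩
  set c := Finset.univ.gcd Δ
  have hΔω : Δ = c • ω := funext fun J => hω J (Finset.mem_univ _)
  have hc : c ≠ 0 := fun h => hJ₀ (by rw [hΔω, h, zero_smul]; rfl)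
  have hω0 : ω J₀ ≠ 0 := fun h => hJ₀ (by rw [hΔω, Pi.smul_apply, h, smul_zero])
  have hcancel : ∀ a a' : A, a • ω = a' • ω → a = a' := fun a a' h =>
    mul_right_cancel₀ hω0 (congrFun h J₀)
  have hν : ∀ g, ∃ ν : A, act g ω = ν • ω := by
    intro g
    obtain ⟨δ, hδ⟩ := act_Δ g
    obtain ⟨x, y, hy, rfl⟩ := IsFractionRing.div_surjective A δ
    have hy0 : algebraMap A F y ≠ 0 := by
      rw [Ne, map_eq_zero_iff _ hinj]; exact nonZeroDivisors.ne_zero hy
    have h1 : ∀ I, y * σ g c * act g ω I = x * c * ω I := by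
      intro I
      apply hinj
      have := hδ I
      rw [hΔω, act_smul] at this
      simp only [Pi.smul_apply, smul_eq_mul, map_mul] at this ⊢
      rw [mul_assoc, this]; field_simp
    have h2 : y * σ g c ∣ x * c := by
      have h3 : y * σ g c ∣ Finset.univ.gcd fun I => x * c * ω I :=
        Finset.dvd_gcd fun I _ => ⟨_, (h1 I).symm⟩
      have h4 := Finset.gcd_mul_left' Finset.univ ω (x * c)
      rw [hω1, mul_one] at h4
      exact h3.trans h4.dvd
    obtain ⟨ν, hν⟩ := h2
    refine ⟨ν, funext fun I => mul_left_cancel₀ (mul_ne_zero (nonZeroDivisors.ne_zero hy)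
      ((map_ne_zero_iff _ (σ g).injective).2 hc)) ?_⟩
    rw [h1, hν, Pi.smul_apply, smul_eq_mul]; ring
  choose ν hν using hν
  have hν1 : ν 1 = 1 := hcancel _ _ (by
    rw [← hν, act_scalar 1 1 (map_one σ) (by simp)]; simp)
  have hνm : ∀ g h, ν (g * h) = σ g (ν h) * ν g := fun g h => hcancel _ _ (by
    rw [← hν, act_mul, hν h, act_smul, hν g, mul_smul])
  have hνk : ∀ g, ∃ z : k, ν g = algebraMap k A z := fun g => hU _
    (IsUnit.of_mul_eq_one_right (σ g (ν g⁻¹)) (by rw [← hνm, mul_inv_cancel, hν1]))
  choose ν₀ hν₀ using hνk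
  have hk : Function.Injective (algebraMap k A) := (algebraMap k A).injective
  let ν₁ : E →* k := ⟨⟨ν₀, hk (by rw [← hν₀, hν1, map_one])⟩, fun g h => hk (by
    rw [← hν₀, hνm, map_mul, hν₀, hν₀, AlgEquiv.commutes, mul_comm])⟩
  refine ⟨ν₁.toHomUnits, fun g z h1 h2 => hk ?_⟩
  change algebraMap k A (ν₀ g) = _
  rw [← hν₀]
  exact hcancel _ _ (by rw [← hν, act_scalar g z h1 h2])

end Cfsg.Lib.Dade
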