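import Cfsg.Agent.Dade.Perm
import Cfsg.Agent.Dade.Line
import Mathlib.Algebra.MvPolynomial.Nilpotent
import Mathlib.Algebra.MvPolynomial.Rename
import Mathlib.RingTheory.Polynomial.UniqueFactorization
import Mathlib.RingTheory.UniqueFactorizationDomain.GCDMonoid
import Mathlib.LinearAlgebra.Matrix.Trace
import Mathlib.Algebra.Algebra.Bilinear

/-!
# Splitting of the automiser of an endo-permutation module of an elementary abelian group

The generic nilpotent element of the group algebra has exactly one block that is not free.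
-/

set_option autoImplicit false

open Module Matrix LinearMap

namespace Cfsg.Lib.Dade

section Base

variable {k F n Y : Type*} [Field k] [Field F] [Fintype n] [DecidableEq n]

/-- Base change of a linear map from matrices to functions. -/
noncomputable def bcI (j : k →+* F) (ι : Matrix n n k →ₗ[k] (Y → k)) : Matrix n n F →ₗ[F] (Y → F) where
  toFun y g := ∑ a, ∑ b, y a b * j (ι (Matrix.single a b 1) g)
  map_add' y y' := by funext g; simp [add_mul, Finset.sum_add_distrib]
  map_smul' c y := by funext g; simp [Finset.mul_sum, mul_assoc]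

theorem bcI_map (j : k →+* F) (ι : Matrix n n k →ₗ[k] (Y → k)) (y : Matrix n n k) :
    bcI j ι (y.map j) = fun g => j (ι y g) := by
  funext g
  change ∑ a, ∑ b, j (y a b) * j (ι (Matrix.single a b 1) g) = _
  conv_rhs => rw [matrix_eq_sum_single y]
  simp only [map_sum, Finset.sum_apply]
  refine Finset.sum_congr rfl fun a _ => Finset.sum_congr rfl fun b _ => ?_
  rw [← map_mul, show Matrix.single a b (y a b) = y a b • Matrix.single a b (1 : k) by simp,
    map_smul]
  rfl

theorem ext_map (j : k →+* F) {W : Type*} [AddCommGroup W] [Module F W]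
    {f g : Matrix n n F →ₗ[F] W} (h : ∀ y : Matrix n n k, f (y.map j) = g (y.map j)) : f = g := by
  refine LinearMap.ext fun y => ?_
  rw [matrix_eq_sum_single y]
  simp only [map_sum]
  refine Finset.sum_congr rfl fun a _ => Finset.sum_congr rfl fun b _ => ?_
  have : Matrix.single a b (y a b) = y a b • (Matrix.single a b (1 : k)).map j := by
    rw [Matrix.map_single]; simp
  rw [this, map_smul, map_smul, h]

variable [Fintype Y] [DecidableEq Y]

/-- Base change of a linear map from functions to matrices. -/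
noncomputable def bcP (j : k →+* F) (Pr : (Y → k) →ₗ[k] Matrix n n k) : (Y → F) →ₗ[F] Matrix n n F where
  toFun f := ∑ g, f g • (Pr (Pi.single g 1)).map j
  map_add' f f' := by simp [add_smul, Finset.sum_add_distrib]
  map_smul' c f := by simp [Finset.smul_sum, mul_smul]

omit [Fintype n] [DecidableEq n] in
theorem bcP_map (j : k →+* F) (Pr : (Y → k) →ₗ[k] Matrix n n k) (f : Y → k) :
    bcP j Pr (fun g => j (f g)) = (Pr f).map j := by
  change ∑ g, j (f g) • (Pr (Pi.single g 1)).map j = _
  conv_rhs => rw [pi_eq_sum_univ' f]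
  ext a b
  simp [Matrix.sum_apply]

omit [Fintype n] [DecidableEq n] in
theorem ext_map_pi (j : k →+* F) {W : Type*} [AddCommGroup W] [Module F W]
    {f g : (Y → F) →ₗ[F] W} (h : ∀ y : Y → k, f (fun x => j (y x)) = g fun x => j (y x)) :
    f = g := by
  refine LinearMap.ext fun y => ?_
  rw [pi_eq_sum_univ' y]
  simp only [map_sum, map_smul]
  refine Finset.sum_congr rfl fun a _ => ?_
  have : (Pi.single a 1 : Y → F) = fun x => j ((Pi.single a 1 : Y → k) x) := by
    funext x; simp [Pi.single_apply, apply_ite j]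
  rw [this, h]

end Base

section Ad

variable {F n X : Type*} [Field F] [Fintype n] [DecidableEq n] [Fintype X] {p : ℕ}

/-- The generic conjugation operator on matrices. -/
noncomputable def DC (p : ℕ) (t : X → F) (ρ : X → Matrix n n F) : End F (Matrix n n F) :=
  ∑ x, t x • (mulLeft F (ρ x) * mulRight F (ρ x ^ (p - 1)) - 1)

theorem commute_mulLeft {a b : Matrix n n F} (h : Commute a b) :
    Commute (mulLeft F a) (mulLeft F b) :=
  LinearMap.ext fun y => by simp [← mul_assoc, h.eq]

theorem commute_mulRight {a b : Matrix n n F} (h : Commute a b) :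
    Commute (mulRight F a) (mulRight F b) :=
  LinearMap.ext fun y => by simp [mul_assoc, h.eq]

/-- If conjugation has one trivial block and is otherwise free, then the generic element has one
block that is not free. -/
theorem finrank_ker_generic (hp : p.Prime) (h0 : (p : F) = 0) (t : X → F) {ρ : X → Matrix n n F}
    (hc : ∀ x x', Commute (ρ x) (ρ x')) (hρ : ∀ x, ρ x ^ p = 1)
    (h1 : (1 : Matrix n n F) ∉ range (DC p t ρ))
    (h2 : ker (DC p t ρ) ≤ range (DC p t ρ ^ (p - 1)) ⊔ F ∙ 1) :
    Fintype.card n ≠ 0 ∧ finrank F (ker (∑ x, t x • (ρ x - 1)).mulVecLin) +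
      finrank F (ker ((∑ x, t x • (ρ x - 1)) ^ (p - 1)).mulVecLin) = Fintype.card n + 1 := by
  have := Fact.mk hp
  have hE : (p : End F (Matrix n n F)) = 0 := natCast_end_eq_zero h0
  have hM : (p : Matrix n n F) = 0 := by
    rw [← map_natCast (algebraMap F (Matrix n n F)), h0, map_zero]
  have hρ' : ∀ x, ρ x ^ (p - 1) * ρ x = 1 := fun x => by
    rw [← pow_succ, Nat.sub_add_cancel hp.pos, hρ]
  have hρ'' : ∀ x, ρ x * ρ x ^ (p - 1) = 1 := fun x => by
    rw [← pow_succ', Nat.sub_add_cancel hp.pos, hρ]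
  let γ : X → End F (Matrix n n F) := fun x =>
    t x • (mulLeft F (ρ x) * mulRight F (ρ x ^ (p - 1)) - 1)
  let β : X → End F (Matrix n n F) := fun x => mulRight F (ρ x) - 1
  let Good : End F (Matrix n n F) → Prop := fun b =>
    ∀ x, Commute b (mulLeft F (ρ x)) ∧ Commute b (mulRight F (ρ x))
  have hγ : ∀ b, Good b → ∀ x, Commute b (γ x) := fun b hb x =>
    (((hb x).1.mul_right (by rw [← pow_mulRight]; exact (hb x).2.pow_right _)).sub_right
      (Commute.one_right _)).smul_right _
  have hβ : ∀ b, Good b → ∀ x, Commute b (β x) := fun b hb x =>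
    (hb x).2.sub_right (Commute.one_right _)
  have hL : ∀ x, Good (mulLeft F (ρ x)) := fun x x' =>
    ⟨commute_mulLeft (hc x x'), commute_mulLeft_right _ _⟩
  have hR : ∀ x, Good (mulRight F (ρ x)) := fun x x' =>
    ⟨(commute_mulLeft_right _ _).symm, commute_mulRight (hc x x')⟩
  have hγG : ∀ x, Good (γ x) := fun x x' => ⟨(hγ _ (hL x') x).symm, (hγ _ (hR x') x).symm⟩
  have hβG : ∀ x, Good (β x) := fun x x' => ⟨(hβ _ (hL x') x).symm, (hβ _ (hR x') x).symm⟩
  have hγp : ∀ x, γ x ^ p = 0 := fun x => by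
    rw [smul_pow, sub_pow_p hp hE (Commute.one_right _), (commute_mulLeft_right _ _).mul_pow,
      pow_mulLeft, pow_mulRight, ← pow_mul, mul_comm (p - 1), pow_mul, hρ]
    simp [← Module.End.one_eq_id]
  have hβp : ∀ x, β x ^ p = 0 := fun x => by
    rw [sub_pow_p hp hE (Commute.one_right _), pow_mulRight, hρ]
    simp [← Module.End.one_eq_id]
  have hDp : DC p t ρ ^ p = 0 := sum_pow_p_eq_zero hp hE _ (fun x x' => hγ _ (hγG x) x') hγp
  have hD1 : DC p t ρ 1 = 0 := by simp [DC, LinearMap.sum_apply, hρ'']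
  have h3 := mul_ker_add_one hp.one_lt hDp hD1 h1 h2
  have hN : finrank F (Matrix n n F) = Fintype.card n * Fintype.card n := by
    simp [Module.finrank_matrix]
  have hm : ¬ p ∣ Fintype.card n := fun h => by
    have h4 : p ∣ p * finrank F (ker (DC p t ρ)) + 1 := by
      rw [h3, hN]; exact dvd_add (h.mul_right _) dvd_rfl
    exact hp.one_lt.ne' (Nat.dvd_one.1 ((Nat.dvd_add_right (dvd_mul_right _ _)).1 h4))
  have h4 := finrank_ker_add_sum_le hp h0 Finset.univ (α := DC p t ρ) (β := β) (γ := γ)
    (fun x => Commute.sum_left _ _ _ fun x' _ => hβ _ (hγG x') x)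
    (fun x => Commute.sum_left _ _ _ fun x' _ => hγ _ (hγG x') x) (fun x x' => hγ _ (hβG x) x')
    (fun x x' => hβ _ (hβG x) x') (fun x x' => hγ _ (hγG x) x') hDp hβp hγp (by omega)
  set u : Matrix n n F := ∑ x, t x • (ρ x - 1) with hu
  have hup : u ^ p = 0 := sum_pow_p_eq_zero hp hM _
    (fun x x' => ((((hc x x').sub_right (Commute.one_right _)).sub_left
      (Commute.one_left _)).smul_left _).smul_right _)
    fun x => by rw [smul_pow, sub_pow_p hp hM (Commute.one_right _), hρ]; simp
  have hD : DC p t ρ + ∑ x, β x * γ x = mulLeft F u - mulRight F u := by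
    refine LinearMap.ext fun y => ?_
    simp only [DC, hu, β, γ, LinearMap.add_apply, LinearMap.sum_apply, LinearMap.smul_apply, LinearMap.sub_apply,
      Module.End.mul_apply, mulLeft_apply, mulRight_apply, Module.End.one_apply, Finset.sum_mul,
      Finset.mul_sum, ← Finset.sum_add_distrib, ← Finset.sum_sub_distrib, map_smul, map_sub]
    refine Finset.sum_congr rfl fun x _ => ?_
    rw [mul_assoc, mul_assoc, hρ', mul_one, Matrix.smul_mul, Matrix.mul_smul, ← smul_add,
      ← smul_sub, sub_mul, mul_sub, one_mul, mul_one]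
    congr 1; abel
  rw [hD] at h4
  set D := mulLeft F u - mulRight F u with hDdef
  have hDa : ∀ y, D y = u * y - y * u := fun y => rfl
  have hDp' : D ^ p = 0 := by
    rw [hDdef, sub_pow_p hp hE (commute_mulLeft_right _ _), pow_mulLeft, pow_mulRight, hup]; simp
  have h5 := ker_le_of_mul_ker hp.one_lt hDp' (v := 1) (by simp [hDa]) (by
    rintro ⟨y, hy⟩
    have := congrArg Matrix.trace hy
    rw [hDa, trace_sub, trace_mul_comm, sub_self, trace_one] at this
    have hch : CharP F p := (CharP.charP_iff_prime_eq_zero hp).2 h0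
    exact hm ((CharP.cast_eq_zero_iff F p _).1 this.symm))
    (le_trans (Nat.add_le_add_right (Nat.mul_le_mul_left p h4) 1) h3.le)
  have hpow : ∀ l : ℕ, (u.mulVecLin : End F (n → F)) ^ l = (u ^ l).mulVecLin := fun l => by
    rw [← toLin'_apply', ← toLin'_apply', toLin'_pow]
  have h6 := finrank_ker_eq_succ (u := (u.mulVecLin : End F (n → F))) hp.pos
    (by rw [hpow, hup, mulVecLin_zero]) (by rwa [Module.finrank_fintype_fun_eq_card]) (by
      intro ψ hψ
      have hy : toMatrix' ψ ∈ ker D := by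
        have := congrArg toMatrix' hψ
        rw [toMatrix'_mul, toMatrix'_mul, ← toLin'_apply', toMatrix'_toLin'] at this
        rw [mem_ker, hDa, this, sub_self]
      obtain ⟨_, ⟨w, rfl⟩, _, hz, hw⟩ := Submodule.mem_sup.1 (h5 hy)
      obtain ⟨c, rfl⟩ := Submodule.mem_span_singleton.1 hz
      refine ⟨c, fun v hv => ⟨w *ᵥ v, ?_⟩⟩
      have h7 : ∀ l : ℕ, (D ^ l) w *ᵥ v = u ^ l *ᵥ (w *ᵥ v) := fun l => by
        induction l with
        | zero => simp
        | succ l ih =>
          rw [pow_succ', Module.End.mul_apply, hDa, sub_mulVec, ← mulVec_mulVec, ← mulVec_mulVec,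
            ih, show u *ᵥ v = 0 from hv, mulVec_zero, sub_zero, mulVec_mulVec, pow_succ']
      rw [hpow, mulVecLin_apply, ← h7, ← toMatrix'_mulVec, ← hw, add_mulVec, smul_mulVec,
        one_mulVec, add_sub_cancel_right])
  have h7 := finrank_range_add_finrank_ker (u ^ (p - 1)).mulVecLin
  rw [Module.finrank_fintype_fun_eq_card] at h7
  rw [hpow] at h6
  exact ⟨fun h => hm (h ▸ dvd_zero p), by omega⟩

end Ad

/-- Renaming of variables as a homomorphism. -/
noncomputable def renameHom (k X : Type*) [Field k] :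
    Equiv.Perm X →* (MvPolynomial X k ≃ₐ[k] MvPolynomial X k) where
  toFun e := MvPolynomial.renameEquiv k e
  map_one' := by ext1 f; simp
  map_mul' e e' := by ext1 f; simp [MvPolynomial.rename_rename]

/-- The splitting theorem for an endo-permutation representation of an elementary abelian
group. -/
theorem core {k n X Y E : Type*} [Field k] {p : ℕ} (hp : p.Prime) (h0 : (p : k) = 0) [Fintype n]
    [DecidableEq n] [Finite X] [Finite Y] [DecidableEq Y] {ρ : X → Matrix n n k}
    (hρc : ∀ x x', Commute (ρ x) (ρ x')) (hρ : ∀ x, ρ x ^ p = 1) {τ : X → Equiv.Perm Y}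
    (hτc : ∀ x x', Commute (τ x) (τ x')) (hτ : ∀ x, τ x ^ p = 1)
    (ι : Matrix n n k →ₗ[k] (Y → k)) (Pr : (Y → k) →ₗ[k] Matrix n n k) (hPι : ∀ y, Pr (ι y) = y)
    (hι : ∀ x y g, ι (ρ x * y) g = ι (y * ρ x) (τ x g))
    (hPr : ∀ x f, Pr (fun g => f (τ x g)) * ρ x = ρ x * Pr f)
    (hfix : ∀ g, (∀ x, τ x g = g) → ∃ c : k, Pr (Pi.single g 1) = c • 1)
    {g₀ : Y} (hg₀ : ∀ x, τ x g₀ = g₀) (h1 : ι 1 g₀ ≠ 0) [Group E] (a : E →* Equiv.Perm X)
    (φ : E →* Matrix n n k) (hφ : ∀ g x, φ g * ρ x = ρ (a g x) * φ g) :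
    ∃ ν : E →* kˣ, ∀ g (z : k), a g = 1 → φ g = z • 1 → (ν g : k) = z := by
  classical
  have := Fintype.ofFinite X
  have := Fintype.ofFinite Y
  let A := MvPolynomial X k
  let F := FractionRing A
  let f : A →+* F := algebraMap A F
  have hf : Function.Injective f := IsFractionRing.injective A F
  let j : k →+* F := f.comp MvPolynomial.C
  have h0F : (p : F) = 0 := by rw [← map_natCast j, h0, map_zero]
  let t : X → F := fun x => f (MvPolynomial.X x)
  let ρF : X → Matrix n n F := fun x => (ρ x).map j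
  have hρ' : ∀ x, ρ x ^ (p - 1) * ρ x = 1 := fun x => by
    rw [← pow_succ, Nat.sub_add_cancel hp.pos, hρ]
  have hρ'' : ∀ x, ρ x * ρ x ^ (p - 1) = 1 := fun x => by
    rw [← pow_succ', Nat.sub_add_cancel hp.pos, hρ]
  have hmap : ∀ x y, (mulLeft F (ρF x) * mulRight F (ρF x ^ (p - 1))) (Matrix.map y j) =
      (ρ x * (y * ρ x ^ (p - 1))).map j := fun x y => by
    simp [ρF, Matrix.map_mul, Matrix.map_pow]
  have hI : ∀ x, (bcI j ι).comp (mulLeft F (ρF x) * mulRight F (ρF x ^ (p - 1))) =
      (funLeft F F (τ x)).comp (bcI j ι) := fun x => ext_map j fun y => by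
    rw [LinearMap.comp_apply, LinearMap.comp_apply, hmap, bcI_map, bcI_map]
    funext g
    rw [hι, mul_assoc, hρ', mul_one]; rfl
  have hP : ∀ x, (bcP j Pr).comp (funLeft F F (τ x)) =
      (mulLeft F (ρF x) * mulRight F (ρF x ^ (p - 1))).comp (bcP j Pr) :=
    fun x => ext_map_pi j fun y => by
      rw [LinearMap.comp_apply, LinearMap.comp_apply, bcP_map, hmap, ← mul_assoc, ← hPr, mul_assoc, hρ'', mul_one,
        ← bcP_map]; rfl
  have hPI : (bcP j Pr).comp (bcI j ι) = LinearMap.id := ext_map j fun y => by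
    rw [LinearMap.comp_apply, bcI_map, bcP_map, hPι]; rfl
  have hID : ∀ y, bcI j ι (DC p t ρF y) = DY t τ (bcI j ι y) := fun y => by
    simp only [DC, DY, LinearMap.sum_apply, LinearMap.smul_apply, LinearMap.sub_apply, map_sum, map_smul, map_sub,
      Module.End.one_apply]
    exact Finset.sum_congr rfl fun x _ => by rw [← LinearMap.comp_apply, hI]; rfl
  have hPD : ∀ y, bcP j Pr (DY t τ y) = DC p t ρF (bcP j Pr y) := fun y => by
    simp only [DC, DY, LinearMap.sum_apply, LinearMap.smul_apply, LinearMap.sub_apply, map_sum, map_smul, map_sub,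
      Module.End.one_apply]
    exact Finset.sum_congr rfl fun x _ => by rw [← LinearMap.comp_apply, hP]; rfl
  have hPDn : ∀ (l : ℕ) y, bcP j Pr ((DY t τ ^ l) y) = (DC p t ρF ^ l) (bcP j Pr y) := fun l => by
    induction l with
    | zero => intro y; rfl
    | succ l ih => intro y; rw [pow_succ', pow_succ', Module.End.mul_apply, hPD, ih]; rfl
  obtain ⟨hn, hκ⟩ := finrank_ker_generic hp h0F t (ρ := ρF)
    (fun x x' => by
      change _ * _ = _ * _
      rw [← Matrix.map_mul, (hρc x x').eq, Matrix.map_mul])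
    (fun x => by rw [← Matrix.map_pow, hρ]; simp)
    (by
      rintro ⟨y, hy⟩
      have h2 := congrFun (hID y) g₀
      rw [hy, DY_apply, Finset.sum_eq_zero fun x _ => by rw [hg₀, sub_self, mul_zero],
        ← Matrix.map_one j (map_zero j) (map_one j), bcI_map, map_eq_zero] at h2
      exact h1 h2)
    (by
      intro y hy
      obtain ⟨v₀, w, h2, h3⟩ := exists_of_DY_eq_zero hp h0F f hf hτc hτ (v := bcI j ι y)
        (by rw [← hID, mem_ker.1 hy, map_zero])
      have h4 : y = bcP j Pr (bcI j ι y) := (LinearMap.congr_fun hPI y).symm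
      rw [h4, h3, map_add, hPDn, add_comm]
      refine Submodule.add_mem_sup ⟨_, rfl⟩ (Submodule.sum_mem _ fun g _ => ?_)
      by_cases hg : v₀ g = 0
      · rw [hg, zero_smul]; exact zero_mem _
      · obtain ⟨c, hc⟩ := hfix g (h2 g hg)
        refine Submodule.smul_mem _ _ (Submodule.mem_span_singleton.2 ⟨j c, ?_⟩)
        rw [hc]; ext a b; simp [one_apply, apply_ite j])
  let U : Matrix n n A := ∑ x, (MvPolynomial.X x : A) • ((ρ x).map (algebraMap k A) - 1)
  have hU : U.map f = ∑ x, t x • (ρF x - 1) := by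
    ext a b; simp [U, t, ρF, j, Matrix.sum_apply, one_apply, apply_ite f, A]
  have hUn : ∀ l : ℕ, ∀ g, (φ g).map (algebraMap k A) * (U ^ l).map ((renameHom k X).comp a g) =
      U ^ l * (φ g).map (algebraMap k A) := by
    intro l g
    have h2 : (φ g).map (algebraMap k A) * U.map ((renameHom k X).comp a g) =
        U * (φ g).map (algebraMap k A) := by
      have h3 : U.map ((renameHom k X).comp a g) =
          ∑ x, (MvPolynomial.X (a g x) : A) • ((ρ x).map (algebraMap k A) - 1) := by
        ext1 c d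
        simp [U, renameHom, Matrix.sum_apply, one_apply, A, apply_ite (MvPolynomial.rename (a g))]
      rw [h3, Finset.mul_sum, Finset.sum_mul]
      refine Fintype.sum_equiv (a g) _ _ fun x => ?_
      rw [Matrix.mul_smul, Matrix.smul_mul, mul_sub, sub_mul, ← Matrix.map_mul, hφ, Matrix.map_mul,
        mul_one, one_mul]
    induction l with
    | zero => simp
    | succ l ih =>
      rw [pow_succ, Matrix.map_mul, ← mul_assoc, ih, mul_assoc, h2, mul_assoc]
  have hunit : ∀ x : A, IsUnit x → ∃ c : k, x = algebraMap k A c := fun x hx => by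
    obtain ⟨c, -, hc⟩ := MvPolynomial.isUnit_iff_eq_C_of_isReduced.1 hx
    exact ⟨c, hc⟩
  obtain ⟨ν₁, h₁⟩ := exists_char (F := F) hunit _ φ (U ^ 1) (hUn 1)
  obtain ⟨ν₂, h₂⟩ := exists_char (F := F) hunit _ φ (U ^ (p - 1)) (hUn _)
  obtain ⟨ν₀, h₀⟩ := exists_char (F := F) hunit ((renameHom k X).comp a) φ 0 (by simp)
  refine ⟨ν₁ * ν₂ * ν₀⁻¹, fun g z hg hz => ?_⟩
  have hσ : (renameHom k X).comp a g = 1 := by rw [MonoidHom.comp_apply, hg, map_one]
  have h2 := h₁ g z hσ hz
  have h3 := h₂ g z hσ hz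
  have h4 := h₀ g z hσ hz
  rw [pow_one, hU] at h2
  rw [Matrix.map_pow, hU] at h3
  rw [Matrix.map_zero _ (map_zero _), mulVecLin_zero, ker_zero, finrank_top,
    Module.finrank_fintype_fun_eq_card] at h4
  simp only [MonoidHom.mul_apply, MonoidHom.inv_apply, Units.val_mul, Units.val_inv_eq_inv_val]
  rw [h2, h3, ← pow_add, hκ, pow_succ, ← h4, mul_comm (ν₀ g : k), mul_assoc,
    mul_inv_cancel₀ (ν₀ g).ne_zero, mul_one]

end Cfsg.Lib.Dade
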