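import Cfsg.Agent.Dade.Triple
import Cfsg.Agent.Block.PrincBasic
import Cfsg.Agent.FT.BG1.Chief

/-!
# Extension of invariant characters under a coprime solvable group of operators
-/

set_option autoImplicit false

open Subgroup Cfsg.Lib.Char Cfsg.Lib.Block

namespace Cfsg.Lib.Dade

universe u

theorem exists_ext_of_central {G : Type*} [Group G] [Finite G] {E H : Subgroup G}
    (hEH : E ⊓ H = ⊥) (htop : E ⊔ H = ⊤) (hc : E ≤ center G) (θ : IrrCharacter E) :
    ∃ χ, IsIrrCharacter G χ ∧ ∀ e : E, χ e = (θ : E → ℂ) e := by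
  have hEn : E.Normal := ⟨fun x hx g => by
    rwa [mem_center_iff.1 (hc hx) g, mul_inv_cancel_right]⟩
  have hdec : ∀ g : G, ∃ e ∈ E, ∃ h ∈ H, e * h = g := fun g =>
    mem_sup_of_normal_left.1 (htop ▸ mem_top g)
  have hHn : H.Normal := ⟨fun x hx g => by
    obtain ⟨e, he, h, hh, rfl⟩ := hdec g
    rw [mul_inv_rev, ← mul_assoc, mul_assoc e, mul_assoc e, ← mem_center_iff.1 (hc he),
      mul_inv_cancel_right]
    exact mul_mem (mul_mem hh hx) (inv_mem hh)⟩
  let f : E →* G ⧸ H := (QuotientGroup.mk' H).comp E.subtype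
  have hf : Function.Bijective f := ⟨(injective_iff_map_eq_one f).2 fun e he => Subtype.ext
    (mem_bot.1 (hEH ▸ (⟨e.2, (QuotientGroup.eq_one_iff _).1 he⟩ : (e : G) ∈ E ⊓ H))), fun q => by
      obtain ⟨g, rfl⟩ := QuotientGroup.mk_surjective q
      obtain ⟨e, he, h, hh, rfl⟩ := hdec g
      exact ⟨⟨e, he⟩, (QuotientGroup.mk_mul_of_mem e hh).symm⟩⟩
  let φ := MulEquiv.ofBijective f hf
  refine ⟨_, θ.2.comp_of_surjective ((φ.symm : G ⧸ H →* E).comp (QuotientGroup.mk' H))
    (φ.symm.surjective.comp (QuotientGroup.mk'_surjective H)), fun e => ?_⟩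
  exact congrArg _ (φ.symm_apply_apply e)

/-- An invariant character of `E` extends to `E H` if `H` has a solvable normal subgroup `K` of
order prime to `|E|` whose fixed points on `E` are central. -/
theorem exists_ext_of_coprime (G : Type u) [Group G] [Finite G] {E H K : Subgroup G} [E.Normal]
    (hEH : E ⊓ H = ⊥) (htop : E ⊔ H = ⊤) (hKH : K ≤ H) (hHK : H ≤ normalizer (K : Set G))
    (hs : Group.IsSolvable K) (hcop : (Nat.card E).Coprime (Nat.card K))
    (hc : E ⊓ centralizer (K : Set G) ≤ center G) {θ : IrrCharacter E}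
    (hθ : ∀ g : G, cjI g θ = θ) : ∃ χ, IsIrrCharacter G χ ∧ ∀ e : E, χ e = (θ : E → ℂ) e := by
  induction hn : Nat.card K using Nat.strong_induction_on generalizing G with
  | _ n ih =>
  by_cases hK : K = ⊥
  · exact exists_ext_of_central hEH htop (fun x hx => hc ⟨hx, fun y hy => by
      rw [hK] at hy; rw [mem_bot.1 hy, one_mul, mul_one]⟩) θ
  obtain ⟨R, hRK, hR⟩ := FT.minnormal_exists hK hHK
  obtain ⟨r, hr, hab, hexp⟩ := FT.minnormal_solvable_abelem hR
    (Group.isSolvable_of_isSolvable_injective (inclusion_injective hRK))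
  have := Fact.mk hr
  obtain ⟨M, hM⟩ := Princ.exists_isPModular hr
  have hRp : IsPGroup r R := fun x => ⟨1, Subtype.ext (by rw [pow_one]; exact hexp x x.2)⟩
  have hrR : r ∣ Nat.card R := hRp.card_eq_or_dvd.resolve_left fun h => hR.1 (card_eq_one.1 h)
  have hE : ¬ r ∣ Nat.card E := fun h => hr.one_lt.ne'
    (Nat.eq_one_of_dvd_coprimes hcop h (hrR.trans (card_dvd_of_le hRK)))
  have hHN : H ≤ normalizer (R : Set G) := hR.norm
  obtain ⟨Q, _, _, A, lam, T, -, -, -, hA, -⟩ := exists_pPrime_triple E hE hθ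
  obtain ⟨η, -, ⟨T'⟩⟩ := exists_triple_normalizer hM hE T hA hRp
    (fun x hx y hy => congrArg Subtype.val (hab.is_comm.comm ⟨x, hx⟩ ⟨y, hy⟩)) fun g => by
      obtain ⟨e, he, h, hh, rfl⟩ := mem_sup_of_normal_left.1 (htop ▸ mem_top g)
      exact ⟨e, he, by rw [inv_mul_cancel_left]; exact hHN hh⟩
  refine T.exists_ext_iff.2 (T'.exists_ext_iff.1 ?_)
  let N := normalizer (R : Set G)
  let C := E.subgroupOf N
  let π := QuotientGroup.mk' (R.subgroupOf N)
  have hπ : Function.Surjective π := QuotientGroup.mk'_surjective _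
  have hER : ∀ x ∈ E, x ∈ H → x = 1 := fun x hx hx' => mem_bot.1 (hEH ▸ (⟨hx, hx'⟩ : x ∈ E ⊓ H))
  have hinj : ∀ x ∈ C, ∀ y ∈ C, π x = π y → x = y := fun x hx y hy h => by
    have h1 : x⁻¹ * y ∈ R.subgroupOf N := QuotientGroup.eq.1 h
    exact inv_mul_eq_one.1 (Subtype.ext (hER _ (mul_mem (inv_mem hx) hy) (hKH (hRK h1))))
  let φ : C ≃* C.map π := MulEquiv.ofBijective (π.subgroupMap C)
    ⟨fun x y h => Subtype.ext (hinj _ x.2 _ y.2 (congrArg Subtype.val h)),
      π.subgroupMap_surjective C⟩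
  have hφ : ∀ x : C, (φ x : N ⧸ R.subgroupOf N) = π x := fun x => rfl
  have : (C.map π).Normal := Normal.map inferInstance π hπ
  have hcard : Nat.card ((K.subgroupOf N).map π) * Nat.card R = Nat.card K := by
    have h1 : (R.subgroupOf N).relIndex (K.subgroupOf N) = R.relIndex K :=
      relIndex_subgroupOf (hKH.trans hHN)
    rw [← relIndex_ker, QuotientGroup.ker_mk', h1, relIndex,
      Nat.card_congr (subgroupOfEquivOfLe hRK).toEquiv.symm, index_mul_card]
  obtain ⟨χ, hχ, h⟩ := ih (Nat.card ((K.subgroupOf N).map π)) (by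
      rw [← hn, ← hcard]
      exact lt_mul_of_one_lt_right Nat.card_pos (hr.one_lt.trans_le (Nat.le_of_dvd Nat.card_pos hrR)))
    (N ⧸ R.subgroupOf N) (E := C.map π) (H := (H.subgroupOf N).map π)
    (K := (K.subgroupOf N).map π)
    (eq_bot_iff.2 (by
      rintro _ ⟨⟨x, hx, rfl⟩, y, hy, h⟩
      have h1 : y⁻¹ * x ∈ R.subgroupOf N := QuotientGroup.eq.1 h
      have h2 : (x : G) ∈ H := by simpa [mem_subgroupOf] using mul_mem hy (hKH (hRK h1))
      rw [show x = 1 from Subtype.ext (hER _ hx h2), map_one]; exact one_mem _))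
    (by
      rw [← Subgroup.map_sup, eq_top_iff, ← map_top_of_surjective π hπ]
      refine map_mono fun x _ => ?_
      obtain ⟨e, he, h, hh, h1⟩ := mem_sup_of_normal_left.1 (htop ▸ mem_top (x : G))
      have h2 : e ∈ N := by
        rw [eq_mul_inv_of_mul_eq h1]; exact mul_mem x.2 (inv_mem (hHN hh))
      rw [show x = ⟨e, h2⟩ * ⟨h, hHN hh⟩ from Subtype.ext h1.symm]
      exact mul_mem_sup he hh)
    (map_mono (comap_mono hKH))
    ((map_mono ((comap_mono hHK).trans (le_normalizer_comap _))).trans (le_normalizer_map π))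
    (by
      have : Group.IsSolvable (K.subgroupOf N) :=
        Group.isSolvable_of_isSolvable_injective
          (f := (subgroupOfEquivOfLe (hKH.trans hHN)).toMonoidHom) (MulEquiv.injective _)
      exact Group.isSolvable_of_surjective (π.subgroupMap_surjective _))
    ((hcop.coprime_dvd_left ((card_map_dvd _ _).trans
      (card_comap_dvd_of_injective E _ N.subtype_injective))).coprime_dvd_right
        (Dvd.intro _ hcard))
    (by
      rintro _ ⟨⟨x, hx, rfl⟩, h⟩
      have h1 : (x : G) ∈ center G := hc ⟨hx, fun k hk => ?_⟩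
      · rw [mem_center_iff]
        intro g
        obtain ⟨g, rfl⟩ := hπ g
        rw [← map_mul, ← map_mul]
        exact congrArg π (Subtype.ext (mem_center_iff.1 h1 g))
      have h2 := h _ ⟨⟨k, hHN (hKH hk)⟩, hk, rfl⟩
      have h3 := hinj (⟨k, hHN (hKH hk)⟩ * x * ⟨k, hHN (hKH hk)⟩⁻¹)
        ((inferInstance : C.Normal).conj_mem x hx _) x hx (by
          rw [map_mul, map_mul, h2, map_inv, mul_inv_cancel_right])
      exact eq_mul_of_mul_inv_eq (congrArg Subtype.val h3))
    (θ := irrComap φ.symm η)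
    (fun g => Subtype.ext (funext fun x => by
      obtain ⟨g, rfl⟩ := hπ g
      obtain ⟨x, rfl⟩ := φ.surjective x
      rw [cjI_apply, irrComap_apply, irrComap_apply, φ.symm_apply_apply]
      refine T'.invariant (g := g) (hinj _ (φ.symm _).2 _
        ((inferInstance : C.Normal).conj_mem x x.2 _) ?_)
      rw [← hφ, φ.apply_symm_apply, map_mul, map_mul, map_inv]; rfl)) rfl
  refine ⟨_, hχ.comp_of_surjective π hπ, fun x => ?_⟩
  have := h (φ x)
  rwa [irrComap_apply, φ.symm_apply_apply] at this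

end Cfsg.Lib.Dade
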