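import Cfsg.Agent.Dade.Chain
import Cfsg.Agent.Block.FongRed
import Cfsg.Agent.Block.ModLoc
import Cfsg.Agent.Char.ProjRep

/-!
# Character triples and lifts: Dade's theorem for an abelian `p`-group of operators
-/

set_option autoImplicit false

open scoped MonoidAlgebra ComplexConjugate
open Subgroup Cfsg.Lib.Char Cfsg.Lib.Block Cfsg.Lib.Block.Pair

namespace Cfsg.Lib.Dade

universe u w

section Central

variable {Γ G : Type*} [Group Γ] [Group G] {π : Γ →* G} {p n : ℕ}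

/-- A `p`-element commutes with whatever it commutes with modulo a central `p'`-subgroup. -/
theorem comm_of_map_comm (hc : ∀ z, π z = 1 → ∀ y, z * y = y * z) (hn : ∀ z, π z = 1 → z ^ n = 1)
    (hpn : p.Coprime n) {x y : Γ} {m : ℕ} (hx : x ^ p ^ m = 1) (h : π x * π y = π y * π x) :
    x * y = y * x := by
  set z := y⁻¹ * x * y * x⁻¹ with hz
  have h1 : π z = 1 := by
    rw [hz, map_mul, map_mul, map_mul, map_inv, map_inv, mul_assoc _ (π x), h]; simp
  have h2 : y⁻¹ * x * y = z * x := by simp [hz]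
  have h3 : z ^ p ^ m = 1 := by
    have := congrArg (· ^ p ^ m) h2
    simp only [(show Commute z x from hc z h1 x).mul_pow, hx, mul_one] at this
    rw [← this, ← inv_inv y, inv_inv y⁻¹, conj_pow, hx]; simp
  have h4 : z = 1 := by
    have := pow_gcd_eq_one.2 ⟨h3, hn z h1⟩
    rwa [(hpn.pow_left m).gcd_eq_one, pow_one] at this
  rw [h4, one_mul, mul_assoc, inv_mul_eq_iff_eq_mul] at h2
  exact h2

theorem exists_lift_pow (hn : ∀ z, π z = 1 → z ^ n = 1) (hpn : p.Coprime n) {x : Γ} {m : ℕ}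
    (hx : π x ^ p ^ m = 1) : ∃ y, π y = π x ∧ y ^ p ^ m = 1 := by
  obtain ⟨c, hc1, hc2⟩ := Nat.chineseRemainder (hpn.pow_left m) 1 0
  refine ⟨x ^ c, ?_, ?_⟩
  · rw [map_pow, pow_eq_pow_iff_modEq.2 (hc1.of_dvd (orderOf_dvd_of_pow_eq_one hx)), pow_one]
  · obtain ⟨d, rfl⟩ := (Nat.modEq_zero_iff_dvd.1 hc2)
    rw [← pow_mul, mul_comm, pow_mul, pow_mul, hn _ (by rw [map_pow, hx]), one_pow]

end Central

variable {M : Ideal AlgInt} {p : ℕ}

/-- Teichmüller lift of a linear character. -/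
theorem exists_teich (hM : IsPModular p M) {Δ : Type*} [Group Δ] [Finite Δ] (ν : Δ →* (kM M)ˣ) :
    ∃ (ν' : Δ →* ℂˣ), ∀ δ {z : ℂ} {m : ℕ}, ¬ p ∣ m → z ^ m = 1 → redM M z = ν δ → ν' δ = z := by
  have hp : Fact p.Prime := ⟨hM.1⟩
  have := charP_kM hM
  obtain ⟨a, n, hn, h⟩ := Nat.exists_eq_pow_mul_and_not_dvd (Nat.card_pos (α := Δ)).ne' p
    hp.out.ne_one
  have h1 : ∀ δ, (ν δ : kM M) ^ n = 1 := fun δ => by
    have h2 : ((ν δ : kM M) ^ n) ^ p ^ a = 1 := by
      rw [← pow_mul, mul_comm, ← h, ← Units.val_pow_eq_pow_val, ← map_pow, pow_card_eq_one',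
        map_one, Units.val_one]
    have h3 : ((ν δ : kM M) ^ n - 1) ^ p ^ a = 0 := by rw [sub_pow_char_pow, h2, one_pow, sub_self]
    exact sub_eq_zero.1 (pow_eq_zero_iff (pow_ne_zero a hp.out.ne_zero) |>.1 h3)
  choose z hz hz' using fun δ => exists_pow_eq_one_redM_eq hM hn (h1 δ)
  have hn0 : n ≠ 0 := fun h0 => hn (h0 ▸ dvd_zero p)
  let c : Δ →* ℂ :=
    { toFun := z
      map_one' := eq_of_pow_eq_one_of_redM_eq hM hn hn (hz 1) (one_pow n) (by simp [hz'])
      map_mul' := fun x y => eq_of_pow_eq_one_of_redM_eq hM hn hn (hz _)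
        (by rw [mul_pow, hz, hz, one_mul]) (by
          rw [redM_mul (vM_eq_one_of_pow_eq_one hn0 (hz x)).le
            (vM_eq_one_of_pow_eq_one hn0 (hz y)).le, hz', hz', hz', map_mul, Units.val_mul]) }
  exact ⟨c.toHomUnits, fun δ w m hm hw h => eq_of_pow_eq_one_of_redM_eq hM hn hm (hz δ) hw
    ((hz' δ).trans h.symm)⟩

variable {G A Q : Type*} [Group G] [Finite G] [Group A] [Group Q] {ι : A →* Q} {lam : A →* ℂˣ}

/-- The lift attached to a character triple over a normal `p'`-subgroup. -/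
theorem exists_lf_triple (hM : IsPModular p M) {K : Subgroup G} (hK : ¬ p ∣ Nat.card K)
    {θ : IrrCharacter K} (T : CTriple K.subtype (θ : K → ℂ) ι lam) :
    ∃ s, Lf T.π K (hat M K {θ}) s ∧
      (∀ n : K, s (T.j n) = MonoidAlgebra.single (n : G) 1 * hat M K {θ}) ∧
      ∀ a, s (T.b a) = redM M (lam a : ℂ)⁻¹ • hat M K {θ} := by
  classical
  have := Fintype.ofFinite K
  have hKn : K.Normal := by simpa using T.normal_range_i
  have hcf := T.isChar.isClassFunction
  let c : ℂ := (θ : K → ℂ) 1 / Nat.card K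
  let S : T.Γ → ℂ[K] := fun γ => ofFun fun n => c * T.Θ ((T.j n)⁻¹ * γ)
  have hS : ∀ γ n, (S γ).coeff n = c * T.Θ ((T.j n)⁻¹ * γ) := fun γ n => rfl
  have hc : vM M c ≤ 1 := by
    rw [map_div₀, (vM_natCast_eq_one_iff hM _).2 hK, div_one]
    exact vM_le_one_of_isIntegral (IsCharacter_isIntegral θ.2.isCharacter 1)
  have hO : ∀ γ, S γ ∈ OG M K := fun γ n =>
    vM_mul_le_one hc (vM_le_one_of_isIntegral (IsCharacter_isIntegral T.isChar _))
  have hK0 : (Nat.card K : ℂ) ≠ 0 := Nat.cast_ne_zero.2 Nat.card_pos.ne'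
  have hθ0 := θ.2.apply_one_ne_zero
  have hmul : ∀ γ δ, S (γ * δ) = S γ * S δ := fun γ δ => galg_ext fun n => by
    have h1 := sum_mul_conj_translate T.isChar T.j (by simpa only [T.Θ_j] using T.irr)
      (δ * (T.j n)⁻¹) γ⁻¹
    rw [coeff_mul_finite, hS]
    have h2 : ∀ m : K, (S γ).coeff m * (S δ).coeff (m⁻¹ * n) =
        c * c * (T.Θ (T.j m * (δ * (T.j n)⁻¹)) * conj (T.Θ (T.j m * γ⁻¹))) := fun m => by
      rw [hS, hS, ← T.isChar.apply_inv, mul_inv_rev, inv_inv, hcf.apply_mul_comm γ,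
        ← mul_assoc (T.j m), hcf.apply_mul_comm (T.j m * δ), map_mul, map_inv, mul_inv_rev, inv_inv,
        mul_assoc (T.j n)⁻¹]
      ring
    rw [Finset.sum_congr rfl fun m _ => h2 m, ← Finset.mul_sum, h1, T.Θ_one, inv_inv,
      mul_assoc δ, hcf.apply_mul_comm δ, mul_assoc (T.j n)⁻¹]
    simp only [c]
    field_simp
  have hone : S 1 = fB {θ} := galg_ext fun n => by
    rw [hS, coeff_fB, blockCoeff_singleton, mul_one, ← map_inv, T.Θ_j,
      θ.2.isCharacter.apply_inv]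
    simp only [c]; ring
  have hj : ∀ n : K, S (T.j n) = MonoidAlgebra.single n 1 * S 1 := fun n => galg_ext fun m => by
    rw [MonoidAlgebra.coeff_single_mul_apply, hS, hS]; simp
  have hb : ∀ a, S (T.b a) = (lam a : ℂ)⁻¹ • S 1 := fun a => galg_ext fun m => by
    rw [MonoidAlgebra.coeff_smul, Finsupp.smul_apply, hS, hS, ← T.b_comm, T.Θ_b, mul_one,
      smul_eq_mul]
    ring
  let s : T.Γ → (kM M)[G] := fun γ => emb K.subtype (redG M (S γ))
  have hs1 : s 1 = hat M K {θ} := by simp only [s, hone]; rfl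
  have hsm : ∀ γ δ, s (γ * δ) = s γ * s δ := fun γ δ => by
    simp only [s]; rw [hmul, redG_mul (hO γ) (hO δ), map_mul]
  have hsj : ∀ n : K, s (T.j n) = MonoidAlgebra.single (n : G) 1 * hat M K {θ} := fun n => by
    rw [← hs1]
    simp only [s]
    rw [hj, redG_mul (single_one_mem_OG n) (hO 1), map_mul, redG_single, emb_single, redM_one]; rfl
  have hprim := isPrim_hat hM (isPBlock_singleton_of_not_dvd hM hK θ)
  have hst : stabB ({θ} : Set (IrrCharacter K)) = ⊤ := stabB_singleton_eq_top fun g =>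
    Subtype.ext (funext fun n => T.invariant (g := g) rfl)
  refine ⟨s, ⟨fun γ => by rw [normalizer_eq_top]; trivial, fun γ => top_le_stab_hat hst trivial,
    fun γ => ?_, hs1, hsm, fun γ a ha => ?_⟩, hsj, fun a => ?_⟩
  · have := suppOn_range_emb (ι := K.subtype) (redG M (S γ))
    rwa [range_subtype] at this
  · refine Mod.suppOn_induction (P := fun a => s γ * a = cj (T.π γ) a * s γ) (by simp)
      (fun x y hx hy => by rw [mul_add, map_add, add_mul, hx, hy]) (fun r t ht => ?_) ha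
    have h1 : s γ * hat M K {θ} = s γ := by rw [← hs1, ← hsm, mul_one]
    have h2 : hat M K {θ} * s γ = s γ := by rw [← hs1, ← hsm, one_mul]
    have h3 : γ * T.j ⟨t, ht⟩ = T.j ⟨_, hKn.conj_mem t ht (T.π γ)⟩ * γ := by
      rw [T.conj_j (γ := γ) (n := ⟨t, ht⟩) (n' := ⟨_, hKn.conj_mem t ht (T.π γ)⟩) rfl,
        inv_mul_cancel_right]
    have h4 := congrArg s h3
    rw [hsm, hsm, hsj, hsj, mul_assoc, h2, ← (commute_of_suppOn hprim.le_stab
      (suppOn_single ht 1)).eq, ← mul_assoc, h1] at h4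
    rw [mul_smul_comm, map_smul, smul_mul_assoc, h4, cj_single]
  · have h1 : vM M (lam a : ℂ)⁻¹ ≤ 1 := by
      have := T.finite_A
      refine (vM_eq_one_of_pow_eq_one (Nat.card_pos (α := A)).ne' ?_).le
      rw [inv_pow, ← Units.val_pow_eq_pow_val, ← map_pow, pow_card_eq_one']; simp
    rw [← hs1]
    simp only [s]
    rw [hb, redG_smul h1 (hO 1), map_smul]

end Cfsg.Lib.Dade
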