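import Cfsg.Agent.Block.PairBridge
import Mathlib.RingTheory.SimpleModule.IsAlgClosed
import Mathlib.RepresentationTheory.Maschke
import Mathlib.LinearAlgebra.GeneralLinearGroup.AlgEquiv
import Mathlib.Data.Matrix.Basis
import Mathlib.Algebra.Central.Matrix

/-!
# Blocks of `p'`-groups as matrix algebras
-/

set_option autoImplicit false

open scoped MonoidAlgebra
open Subgroup Cfsg.Lib.Block Cfsg.Lib.Block.Pair

namespace Cfsg.Lib.Dade

section Matrix

variable {k n : Type*} [Field k] [Fintype n] [DecidableEq n]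

theorem exists_smul_of_comm {x : Matrix n n k} (h : ∀ y, x * y = y * x) : ∃ c : k, x = c • 1 := by
  have : x ∈ Subalgebra.center k (Matrix n n k) := Subalgebra.mem_center_iff.2 fun y => (h y).symm
  rw [Algebra.IsCentral.center_eq_bot, Algebra.mem_bot] at this
  obtain ⟨c, hc⟩ := this
  exact ⟨c, by rw [← hc, Algebra.algebraMap_eq_smul_one]⟩

theorem exists_unit_conj (σ : Matrix n n k ≃ₐ[k] Matrix n n k) :
    ∃ u : (Matrix n n k)ˣ, ∀ y, (u : Matrix n n k) * y = σ y * u := by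
  obtain ⟨T, hT⟩ := (Matrix.toLinAlgEquiv'.symm.trans
    (σ.trans Matrix.toLinAlgEquiv')).eq_linearEquivConjAlgEquiv
  refine ⟨⟨LinearMap.toMatrix' T.toLinearMap, LinearMap.toMatrix' T.symm.toLinearMap, ?_, ?_⟩,
    fun y => ?_⟩
  · rw [← LinearMap.toMatrix'_comp]; simp
  · rw [← LinearMap.toMatrix'_comp]; simp
  · have h := AlgEquiv.congr_fun hT (Matrix.toLinAlgEquiv' y)
    simp only [AlgEquiv.trans_apply, AlgEquiv.symm_apply_apply, LinearEquiv.conjAlgEquiv_apply] at h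
    have h2 : σ y = LinearMap.toMatrix' (T.toLinearMap ∘ₗ Matrix.toLinAlgEquiv' y ∘ₗ
        T.symm.toLinearMap) := by
      rw [← h]; exact (LinearMap.toMatrix'_toLin' _).symm
    change LinearMap.toMatrix' T.toLinearMap * y = σ y * LinearMap.toMatrix' T.toLinearMap
    rw [h2, ← LinearMap.toMatrix'_comp]
    conv_lhs => rw [← LinearMap.toMatrix'_toLin' y, ← LinearMap.toMatrix'_comp]
    congr 1
    refine LinearMap.ext fun v => ?_
    simp [Matrix.toLinAlgEquiv'_apply]

theorem exists_rank_factor {P : Matrix n n k} (h : P * P = P) :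
    ∃ (m : ℕ) (X : Matrix n (Fin m) k) (Y : Matrix (Fin m) n k), X * Y = P ∧ Y * X = 1 := by
  let L := Matrix.toLin' P
  let b := Module.finBasis k (LinearMap.range L)
  refine ⟨_, LinearMap.toMatrix b (Pi.basisFun k n) (LinearMap.range L).subtype,
    LinearMap.toMatrix (Pi.basisFun k n) b L.rangeRestrict, ?_, ?_⟩
  · rw [← LinearMap.toMatrix_comp, LinearMap.subtype_comp_codRestrict,
      LinearMap.toMatrix_eq_toMatrix', LinearMap.toMatrix'_toLin']
  · rw [← LinearMap.toMatrix_comp, ← LinearMap.toMatrix_id b]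
    congr 1
    refine LinearMap.ext ?_
    rintro ⟨_, v, rfl⟩
    refine Subtype.ext ?_
    change L (L v) = L v
    rw [← LinearMap.comp_apply, ← Matrix.toLin'_mul, h]

end Matrix

variable {k G : Type*} [Field k] [Group G]

theorem suppOn_single {K : Subgroup G} {g : G} (hg : g ∈ K) (c : k) :
    SuppOn K (MonoidAlgebra.single g c) := fun x hx => by
  classical
  rw [MonoidAlgebra.coeff_single, Finsupp.single_apply, if_neg]
  rintro rfl; exact hx hg

theorem suppOn_smul {K : Subgroup G} {a : k[G]} (ha : SuppOn K a) (c : k) : SuppOn K (c • a) :=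
  fun x hx => by simp [ha x hx]

theorem suppOn_cj {K : Subgroup G} {a : k[G]} (ha : SuppOn K a) {g : G}
    (hg : g ∈ normalizer (K : Set G)) : SuppOn K (cj g a) := by
  have := ha.cj g
  rwa [map_conj_eq_self_iff.2 hg] at this

/-- The algebra `kKe` is a matrix algebra. -/
structure MD (K : Subgroup G) (e : k[G]) where
  /-- the degree -/
  n : ℕ
  /-- an index -/
  i₀ : Fin n
  /-- the representation -/
  Φ : k[G] →ₗ[k] Matrix (Fin n) (Fin n) k
  /-- its inverse -/
  Ψ : Matrix (Fin n) (Fin n) k →ₗ[k] k[G]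
  Ψ_mul : ∀ x y, Ψ (x * y) = Ψ x * Ψ y
  Ψ_one : Ψ 1 = e
  supp : ∀ x, SuppOn K (Ψ x)
  ΦΨ : ∀ x, Φ (Ψ x) = x
  ΨΦ : ∀ a, SuppOn K a → Ψ (Φ a) = a * e
  comm : ∀ a, SuppOn K a → e * a = a * e

namespace MD

variable {K : Subgroup G} {e : k[G]} (D : MD K e)

theorem Ψ_inj : Function.Injective D.Ψ := Function.LeftInverse.injective D.ΦΨ

include D in
theorem supp_e : SuppOn K e := D.Ψ_one ▸ D.supp 1

theorem Ψ_mul_e (x : Matrix (Fin D.n) (Fin D.n) k) : D.Ψ x * e = D.Ψ x := by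
  conv_rhs => rw [← mul_one x, D.Ψ_mul, D.Ψ_one]

theorem e_mul_Ψ (x : Matrix (Fin D.n) (Fin D.n) k) : e * D.Ψ x = D.Ψ x := by
  conv_rhs => rw [← one_mul x, D.Ψ_mul, D.Ψ_one]

include D in
theorem idem : e * e = e := by
  have := D.Ψ_mul_e 1
  rwa [D.Ψ_one] at this

theorem Φ_e : D.Φ e = 1 := by
  have := D.ΦΨ 1
  rwa [D.Ψ_one] at this

include D in
theorem ne_zero : e ≠ 0 := fun h => by
  have h1 := congrFun (congrFun (D.Φ_e.symm.trans ((congrArg D.Φ h).trans (map_zero _))) D.i₀) D.i₀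
  simp at h1

theorem Φ_mul {a b : k[G]} (ha : SuppOn K a) (hb : SuppOn K b) : D.Φ (a * b) = D.Φ a * D.Φ b :=
  D.Ψ_inj (by
    rw [D.Ψ_mul, D.ΨΦ _ (ha.mul hb), D.ΨΦ _ ha, D.ΨΦ _ hb, mul_assoc a e, ← mul_assoc e,
      D.comm b hb, mul_assoc b, D.idem, mul_assoc])

theorem Ψ_Φ_mul {a : k[G]} (ha : SuppOn K a) (x : Matrix (Fin D.n) (Fin D.n) k) :
    D.Ψ (D.Φ a * x) = a * D.Ψ x := by
  rw [D.Ψ_mul, D.ΨΦ _ ha, mul_assoc, D.e_mul_Ψ]

theorem Ψ_mul_Φ {a : k[G]} (ha : SuppOn K a) (x : Matrix (Fin D.n) (Fin D.n) k) :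
    D.Ψ (x * D.Φ a) = D.Ψ x * a := by
  rw [D.Ψ_mul, D.ΨΦ _ ha, ← D.comm a ha, ← mul_assoc, D.Ψ_mul_e]

/-- The centre of the block is the ground field. -/
theorem exists_smul {a : k[G]} (ha : SuppOn K a) (h : ∀ b, SuppOn K b → a * b = b * a) :
    ∃ c : k, D.Φ a = c • 1 :=
  exists_smul_of_comm fun y => D.Ψ_inj (by
    rw [D.Ψ_Φ_mul ha, D.Ψ_mul_Φ ha, h _ (D.supp y)])

/-- Skolem–Noether. -/
theorem exists_unit {g : G} (hg : g ∈ normalizer (K : Set G)) (he : g ∈ stab e) :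
    ∃ u : (Matrix (Fin D.n) (Fin D.n) k)ˣ, ∀ a, SuppOn K a →
      D.Ψ u * a = cj g a * D.Ψ u := by
  have key : ∀ {g : G}, g ∈ normalizer (K : Set G) → g ∈ stab e → ∀ x,
      D.Ψ (D.Φ (cj g (D.Ψ x))) = cj g (D.Ψ x) := fun {g} hg he x => by
    rw [D.ΨΦ _ (suppOn_cj (D.supp x) hg)]
    conv_rhs => rw [← D.Ψ_mul_e, map_mul, mem_stab.1 he]
  let σ : Matrix (Fin D.n) (Fin D.n) k ≃ₗ[k] Matrix (Fin D.n) (Fin D.n) k :=
    { D.Φ ∘ₗ (cj g).toLinearMap ∘ₗ D.Ψ with
      invFun := fun x => D.Φ (cj g⁻¹ (D.Ψ x))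
      left_inv := fun x => by
        change D.Φ (cj g⁻¹ (D.Ψ (D.Φ (cj g (D.Ψ x))))) = x
        rw [key hg he, cj_inv_cj, D.ΦΨ]
      right_inv := fun x => by
        change D.Φ (cj g (D.Ψ (D.Φ (cj g⁻¹ (D.Ψ x))))) = x
        rw [key (inv_mem hg) (inv_mem he), cj_cj_inv, D.ΦΨ] }
  have hσ : ∀ x, σ x = D.Φ (cj g (D.Ψ x)) := fun x => rfl
  obtain ⟨u, hu⟩ := exists_unit_conj (AlgEquiv.ofLinearEquiv σ
    (by rw [hσ, D.Ψ_one, mem_stab.1 he, D.Φ_e]) fun x y => by
      rw [hσ, hσ, hσ, D.Ψ_mul, map_mul, D.Φ_mul (suppOn_cj (D.supp x) hg) (suppOn_cj (D.supp y) hg)])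
  refine ⟨u, fun a ha => ?_⟩
  have h := congrArg D.Ψ (hu (D.Φ a))
  rw [D.Ψ_mul_Φ ha, AlgEquiv.ofLinearEquiv_apply, hσ, D.Ψ_mul, key hg he, D.ΨΦ _ ha, map_mul,
    mem_stab.1 he, mul_assoc, D.e_mul_Ψ] at h
  exact h

end MD

/-- A block of a group of order prime to the characteristic is a matrix algebra. -/
theorem nonempty_md [IsAlgClosed k] [Finite G] {K : Subgroup G} (hK : (Nat.card K : k) ≠ 0)
    {e : k[G]} (he : IsPrim K K e) : Nonempty (MD K e) := by
  classical
  have : NeZero (Nat.card K : k) := ⟨hK⟩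
  obtain ⟨n, d, hd, ⟨W⟩⟩ := IsSemisimpleRing.exists_algEquiv_pi_matrix_of_isAlgClosed k k[K]
  have hinj : Function.Injective (emb (R := k) K.subtype) := emb_injective K.subtype_injective
  have hs : ∀ a : k[K], SuppOn K (emb K.subtype a) := fun a => by
    have := suppOn_range_emb (ι := K.subtype) a
    rwa [range_subtype] at this
  have hr : ∀ a : k[G], SuppOn K a → emb K.subtype (resSub K a) = a := fun a ha =>
    incSub_resSub_of_suppOn ha
  have hr' : ∀ a : k[K], resSub K (emb K.subtype a) = a := fun a => hinj (hr _ (hs a))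
  set e' := resSub K e with he'
  have hee : emb K.subtype e' = e := hr e he.suppOn
  have hc : ∀ a, SuppOn K a → e * a = a * e := fun a ha => commute_of_suppOn he.le_stab ha
  have hc' : ∀ a, e' * a = a * e' := fun a => hinj (by rw [map_mul, map_mul, hee, hc _ (hs a)])
  obtain ⟨i, hi⟩ : ∃ i, W e' i ≠ 0 := by
    by_contra! h
    have : W e' = 0 := funext h
    rw [map_eq_zero_iff _ W.injective] at this
    exact he.ne_zero (by rw [← hee, this, map_zero])
  have h1 : W e' i = 1 := by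
    obtain ⟨c, hc⟩ := exists_smul_of_comm (x := W e' i) fun y => by
      have := congrFun (congrArg W (hc' (W.symm (Pi.single i y)))) i
      simpa using this
    have h2 : W e' i * W e' i = W e' i := by
      rw [← Pi.mul_apply, ← map_mul, show e' * e' = e' from hinj (by rw [map_mul, hee, he.idem.eq])]
    rw [hc] at hi h2 ⊢
    have hc0 : c ≠ 0 := fun h => hi (by rw [h, zero_smul])
    rw [smul_mul_smul_comm, mul_one] at h2
    have h3 := congrFun (congrFun h2 0) 0
    simp only [Matrix.smul_apply, Matrix.one_apply_eq, smul_eq_mul, mul_one] at h3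
    rw [(mul_eq_left₀ hc0).1 h3, one_smul]
  have h2 : W e' = Pi.single i 1 := by
    have hcen : W.symm (Pi.single i 1) ∈ Subalgebra.center k k[K] :=
      Subalgebra.mem_center_iff.2 fun a => W.injective (by
        funext j
        by_cases hj : j = i
        · subst hj; simp
        · simp [hj])
    have h3 := he.mul_eq_of_ne_zero (incSub_mem_fix hcen) (by
      change _ * _ = _
      rw [← map_mul, ← map_mul, ← Pi.single_mul, mul_one]) (by
      rw [incSub_eq_emb, ← hee, ← map_mul, emb_ne_zero_iff K.subtype_injective]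
      intro h
      have := congrFun (congrArg W h) i
      simp [h1] at this)
    rw [incSub_eq_emb, ← hee, ← map_mul] at h3
    have h4 := congrArg W (hinj h3)
    rw [map_mul, AlgEquiv.apply_symm_apply] at h4
    rw [← h4]
    funext j
    by_cases hj : j = i
    · subst hj; simp [h1]
    · simp [hj]
  refine ⟨⟨d i, 0, LinearMap.proj i ∘ₗ W.toLinearMap ∘ₗ resSub K,
    (emb K.subtype).toLinearMap ∘ₗ W.symm.toLinearMap ∘ₗ LinearMap.single k (fun i => Matrix (Fin (d i)) (Fin (d i)) k) i,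
    fun x y => ?_, ?_, fun x => hs _, fun x => ?_, fun a ha => ?_, hc⟩⟩
  · simp [Pi.single_mul]
  · simp [← h2, hee]
  · simp [hr']
  · change emb K.subtype (W.symm (Pi.single i (W (resSub K a) i))) = _
    conv_rhs => rw [← hr a ha, ← hee, ← map_mul]
    congr 1
    rw [AlgEquiv.symm_apply_eq, map_mul, h2]
    funext j
    by_cases hj : j = i
    · subst hj; simp
    · simp [hj]

end Cfsg.Lib.Dade
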