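import Mathlib.LinearAlgebra.Dimension.Localization
import Mathlib.LinearAlgebra.FreeModule.PID
import Mathlib.Algebra.Module.LinearMap.Index
import Mathlib.Algebra.CharP.Lemmas
import Mathlib.Algebra.Polynomial.FieldDivision
import Mathlib.RingTheory.TensorProduct.Finite
import Mathlib.LinearAlgebra.Dimension.Constructions
import Mathlib.LinearAlgebra.Dual.Lemmas
import Cfsg.Agent.Block.ModJordan

/-!
# Operators whose `p`-th power is zero
-/

set_option autoImplicit false

open Module LinearMap Polynomial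
open scoped TensorProduct

namespace Cfsg.Lib.Dade

section Ring

variable {R : Type*} [Ring R] {p : ℕ}

theorem add_pow_p (hp : p.Prime) (h0 : (p : R) = 0) {x y : R} (h : Commute x y) :
    (x + y) ^ p = x ^ p + y ^ p := by
  obtain ⟨r, hr⟩ := h.exists_add_pow_prime_eq hp
  rw [hr, h0]; simp

theorem sub_pow_p (hp : p.Prime) (h0 : (p : R) = 0) {x y : R} (h : Commute x y) :
    (x - y) ^ p = x ^ p - y ^ p := by
  have := add_pow_p hp h0 (x := x - y) (y := y) (h.sub_left (Commute.refl y))
  rw [sub_add_cancel] at this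
  rw [this]; simp

theorem sum_pow_p_eq_zero (hp : p.Prime) (h0 : (p : R) = 0) {ι : Type*} (s : Finset ι) {f : ι → R}
    (hc : ∀ i j, Commute (f i) (f j)) (hf : ∀ i, f i ^ p = 0) : (∑ i ∈ s, f i) ^ p = 0 := by
  classical
  induction s using Finset.induction_on with
  | empty => simp [hp.ne_zero]
  | insert a s ha ih =>
    rw [Finset.sum_insert ha, add_pow_p hp h0 (Commute.sum_right _ _ _ fun j _ => hc a j), ih, hf,
      add_zero]

theorem natCast_end_eq_zero {A V : Type*} [CommRing A] [AddCommGroup V] [Module A V]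
    (h0 : (p : A) = 0) : (p : End A V) = 0 := by
  rw [← map_natCast (algebraMap A (End A V)), h0, map_zero]

end Ring

theorem range_pow_zero {A V : Type*} [CommRing A] [AddCommGroup V] [Module A V] (T : End A V) :
    range (T ^ 0) = ⊤ := by rw [pow_zero, Module.End.one_eq_id, range_id]

section Domain

variable {A V : Type*} [CommRing A] [IsDomain A] [IsNoetherianRing A] [AddCommGroup V] [Module A V]
  [Module.Finite A V]

theorem finrank_range_pow (T : End A V) (l : ℕ) :
    finrank A (range (T ^ l)) =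
      finrank A (range (T ^ (l + 1))) + finrank A (ker T ⊓ range (T ^ l) : Submodule A V) := by
  have h1 := Submodule.finrank_quotient_add_finrank (ker (T.domRestrict (range (T ^ l))))
  rw [(T.domRestrict (range (T ^ l))).quotKerEquivRange.finrank_eq, range_domRestrict,
    ker_domRestrict] at h1
  have h2 : (range (T ^ l)).map T = range (T ^ (l + 1)) := by
    rw [pow_succ', Module.End.mul_eq_comp, range_comp]
  have h3 : finrank A ((ker T).comap (range (T ^ l)).subtype) =
      finrank A (ker T ⊓ range (T ^ l) : Submodule A V) := by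
    rw [← Submodule.finrank_map_subtype_eq, Submodule.map_comap_subtype, inf_comm]
  rw [← h1, h2, h3]

theorem finrank_eq_sum {T : End A V} {p : ℕ} (hT : T ^ p = 0) :
    finrank A V = ∑ l ∈ Finset.range p, finrank A (ker T ⊓ range (T ^ l) : Submodule A V) := by
  have h : ∀ n, finrank A V = finrank A (range (T ^ n)) +
      ∑ l ∈ Finset.range n, finrank A (ker T ⊓ range (T ^ l) : Submodule A V) := by
    intro n
    induction n with
    | zero => rw [range_pow_zero]; simp
    | succ n ih => rw [Finset.sum_range_succ, ih, finrank_range_pow T n]; ring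
  rw [h p, hT, range_zero, finrank_bot, zero_add]

theorem finrank_le_mul_ker {T : End A V} {p : ℕ} (hT : T ^ p = 0) :
    finrank A V ≤ p * finrank A (ker T) := by
  rw [finrank_eq_sum hT]
  calc _ ≤ ∑ _l ∈ Finset.range p, finrank A (ker T) :=
        Finset.sum_le_sum fun l _ => Submodule.finrank_mono inf_le_left
    _ = _ := by simp

end Domain

section Field

variable {F V : Type*} [Field F] [AddCommGroup V] [Module F V] [FiniteDimensional F V]

omit [FiniteDimensional F V] in
theorem range_pow_anti (T : End F V) {a b : ℕ} (h : a ≤ b) : range (T ^ b) ≤ range (T ^ a) := by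
  obtain ⟨c, rfl⟩ := Nat.exists_eq_add_of_le h
  rw [pow_add, Module.End.mul_eq_comp]
  exact range_comp_le_range _ _

omit [FiniteDimensional F V] in
theorem range_pow_pred_le_ker {T : End F V} {p : ℕ} (hp : 0 < p) (hT : T ^ p = 0) :
    range (T ^ (p - 1)) ≤ ker T := by
  rintro _ ⟨w, rfl⟩
  rw [mem_ker, ← Module.End.mul_apply, ← pow_succ', Nat.sub_add_cancel hp, hT, zero_apply]

/-- An operator with a small kernel is free. -/
theorem ker_le_range_of_mul_le {T : End F V} {p : ℕ} (hp : 0 < p) (hT : T ^ p = 0)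
    (h : p * finrank F (ker T) ≤ finrank F V) : ker T ≤ range (T ^ (p - 1)) := by
  have h1 : ∑ l ∈ Finset.range p, finrank F (ker T ⊓ range (T ^ l) : Submodule F V) =
      ∑ _l ∈ Finset.range p, finrank F (ker T) := by
    apply le_antisymm (Finset.sum_le_sum fun l _ => Submodule.finrank_mono inf_le_left)
    rw [← finrank_eq_sum hT]; simpa using h
  have h2 := (Finset.sum_eq_sum_iff_of_le
    fun l _ => Submodule.finrank_mono (inf_le_left (a := ker T) (b := range (T ^ l)))).1 h1
    (p - 1) (Finset.mem_range.2 (by omega))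
  exact inf_eq_left.1 (Submodule.eq_of_le_of_finrank_eq inf_le_left h2)

theorem finrank_eq_mul_of_ker_le {T : End F V} {p : ℕ} (hT : T ^ p = 0)
    (h : ker T ≤ range (T ^ (p - 1))) : finrank F V = p * finrank F (ker T) := by
  rw [finrank_eq_sum hT, Finset.sum_congr rfl fun l hl => by
    rw [inf_eq_left.2 (h.trans (range_pow_anti T (by have := Finset.mem_range.1 hl; omega)))]]
  simp

/-- One block of size one, the others free: the dimension of the kernel. -/
theorem mul_ker_add_one {T : End F V} {p : ℕ} (hp : 1 < p) (hT : T ^ p = 0) {v : V} (hv : T v = 0)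
    (hv' : v ∉ range T) (h : ker T ≤ range (T ^ (p - 1)) ⊔ F ∙ v) :
    p * finrank F (ker T) + 1 = finrank F V + p := by
  have h0 : v ∉ range (T ^ (p - 1)) := fun h' => hv' (by
    simpa using range_pow_anti T (show 1 ≤ p - 1 by omega) h')
  have h1 : ker T = range (T ^ (p - 1)) ⊔ F ∙ v := le_antisymm h (sup_le
    (range_pow_pred_le_ker (by omega) hT) (by simpa [Submodule.span_singleton_le_iff_mem]))
  have h2 : finrank F (ker T) = finrank F (range (T ^ (p - 1))) + 1 := by
    rw [h1, Submodule.finrank_sup_span_singleton h0]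
  have h3 : ∀ l ∈ Finset.range (p - 1),
      finrank F (ker T ⊓ range (T ^ (l + 1)) : Submodule F V) = finrank F (range (T ^ (p - 1))) := by
    intro l hl
    have hl' := Finset.mem_range.1 hl
    apply le_antisymm
    · have : (ker T ⊓ range (T ^ (l + 1)) : Submodule F V) < ker T := by
        refine lt_of_le_of_ne inf_le_left fun he => hv' ?_
        have : v ∈ (ker T ⊓ range (T ^ (l + 1)) : Submodule F V) := by rw [he]; exact hv
        simpa using range_pow_anti T (show 1 ≤ l + 1 by omega) this.2
      have := Submodule.finrank_lt_finrank_of_lt this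
      omega
    · exact Submodule.finrank_mono
        (le_inf (range_pow_pred_le_ker (by omega) hT) (range_pow_anti T (by omega)))
  have h4 := finrank_eq_sum hT
  obtain ⟨q, rfl⟩ : ∃ q, p = q + 1 := ⟨p - 1, by omega⟩
  simp only [Nat.add_sub_cancel] at h2 h3
  rw [Finset.sum_range_succ', Finset.sum_congr rfl h3, range_pow_zero, inf_top_eq] at h4
  simp only [Finset.sum_const, Finset.card_range, smul_eq_mul] at h4
  rw [h4, h2]; ring

/-- The converse of `mul_ker_add_one`. -/
theorem ker_le_of_mul_ker {T : End F V} {p : ℕ} (hp : 1 < p) (hT : T ^ p = 0) {v : V}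
    (hv : T v = 0) (hv' : v ∉ range T) (h : p * finrank F (ker T) + 1 ≤ finrank F V + p) :
    ker T ≤ range (T ^ (p - 1)) ⊔ F ∙ v := by
  have h0 : v ∉ range (T ^ (p - 1)) := fun h' => hv' (by
    simpa using range_pow_anti T (show 1 ≤ p - 1 by omega) h')
  have h3 : ∀ l ∈ Finset.range (p - 1),
      finrank F (ker T ⊓ range (T ^ (l + 1)) : Submodule F V) + 1 ≤ finrank F (ker T) := by
    intro l _
    have : (ker T ⊓ range (T ^ (l + 1)) : Submodule F V) < ker T := by
      refine lt_of_le_of_ne inf_le_left fun he => hv' ?_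
      have : v ∈ (ker T ⊓ range (T ^ (l + 1)) : Submodule F V) := by rw [he]; exact hv
      simpa using range_pow_anti T (show 1 ≤ l + 1 by omega) this.2
    exact Submodule.finrank_lt_finrank_of_lt this
  have h4 := finrank_eq_sum hT
  obtain ⟨q, rfl⟩ : ∃ q, p = q + 2 := ⟨p - 2, by omega⟩
  rw [Finset.sum_range_succ', range_pow_zero, inf_top_eq] at h4
  simp only [show q + 2 - 1 = q + 1 from rfl] at h3
  have h5 : ∑ l ∈ Finset.range (q + 1),
      (finrank F (ker T ⊓ range (T ^ (l + 1)) : Submodule F V) + 1) =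
      ∑ _l ∈ Finset.range (q + 1), finrank F (ker T) := by
    apply le_antisymm (Finset.sum_le_sum h3)
    rw [Finset.sum_add_distrib]
    simp only [Finset.sum_const, Finset.card_range, smul_eq_mul]
    nlinarith
  have h6 := (Finset.sum_eq_sum_iff_of_le h3).1 h5 q (Finset.mem_range.2 (by omega))
  have h7 := range_pow_pred_le_ker (by omega) hT
  simp only [show q + 2 - 1 = q + 1 from rfl] at h0 h7 ⊢
  rw [inf_eq_right.2 h7, ← Submodule.finrank_sup_span_singleton h0] at h6
  exact (Submodule.eq_of_le_of_finrank_eq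
    (sup_le h7 (by simpa [Submodule.span_singleton_le_iff_mem])) h6).ge

/-- If the centraliser of `u` acts by scalars on `ker u / im u ^ (p - 1)`, there is at most one
block that is not free. -/
theorem finrank_ker_eq_succ {u : End F V} {p : ℕ} (hp : 0 < p) (hu : u ^ p = 0)
    (hm : ¬ p ∣ finrank F V)
    (h : ∀ ψ : End F V, ψ * u = u * ψ → ∃ c : F, ∀ w, u w = 0 → ψ w - c • w ∈ range (u ^ (p - 1))) :
    finrank F (ker u) = finrank F (range (u ^ (p - 1))) + 1 := by
  classical
  have hR := range_pow_pred_le_ker hp hu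
  have h0 : ¬ (ker u ⊓ range (u ^ 0) ≤ range (u ^ (p - 1))) := fun h' =>
    hm ⟨_, finrank_eq_mul_of_ker_le hu (by rwa [range_pow_zero, inf_top_eq] at h')⟩
  set l := Nat.findGreatest (fun l => ¬ (ker u ⊓ range (u ^ l) ≤ range (u ^ (p - 1)))) p with hl
  have h1 : ¬ (ker u ⊓ range (u ^ l) ≤ range (u ^ (p - 1))) :=
    Nat.findGreatest_spec (P := fun l => ¬ (ker u ⊓ range (u ^ l) ≤ range (u ^ (p - 1))))
      (Nat.zero_le p) h0
  have h2 : ∀ l', l < l' → ker u ⊓ range (u ^ l') ≤ range (u ^ (p - 1)) := by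
    intro l' hl'
    by_cases hp' : l' ≤ p
    · exact not_not.1 (Nat.findGreatest_is_greatest hl' hp')
    · exact inf_le_right.trans (range_pow_anti u (by omega))
  obtain ⟨w, hw, hwR⟩ := SetLike.not_le_iff_exists.1 h1
  obtain ⟨lam, hlam, hlam0⟩ := (range (u ^ (p - 1))).exists_dual_map_eq_bot_of_notMem hwR
    inferInstance
  have hlamR : ∀ v ∈ range (u ^ (p - 1)), lam v = 0 := fun v hv => by
    have : lam v ∈ (range (u ^ (p - 1))).map lam := ⟨v, hv, rfl⟩
    rwa [hlam0] at this
  obtain ⟨ψ, hψ, hψθ⟩ := Block.Mod.exists_commute_extend u (lam.smulRight w) ⟨p, hu⟩ (by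
    intro l' v hv hv'
    refine ⟨by rw [smulRight_apply, map_smul, mem_ker.1 hw.1, smul_zero], ?_⟩
    rw [smulRight_apply]
    by_cases hl' : l < l'
    · rw [hlamR v (h2 l' hl' ⟨hv, hv'⟩), zero_smul]; exact zero_mem _
    · exact Submodule.smul_mem _ _ (range_pow_anti u (by omega) hw.2))
  obtain ⟨c, hc⟩ := h ψ hψ
  have hc1 : c = lam w := by
    have := hlamR _ (hc w hw.1)
    rw [hψθ w hw.1, smulRight_apply, map_sub, map_smul, map_smul, smul_eq_mul, smul_eq_mul,
      ← sub_mul, mul_eq_zero] at this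
    exact (sub_eq_zero.1 (this.resolve_right hlam)).symm
  have h3 : ker u = range (u ^ (p - 1)) ⊔ F ∙ w := by
    refine le_antisymm (fun v hv => ?_) (sup_le hR (by
      simpa [Submodule.span_singleton_le_iff_mem] using hw.1))
    have h4 := hc v hv
    rw [hψθ v hv, smulRight_apply, hc1] at h4
    have h5 : v = -(lam w)⁻¹ • (lam v • w - lam w • v) + ((lam w)⁻¹ * lam v) • w := by
      rw [smul_sub, smul_smul, smul_smul, neg_mul, neg_mul, inv_mul_cancel₀ hlam]; simp
    rw [h5]
    exact Submodule.add_mem_sup (Submodule.smul_mem _ _ h4)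
      (Submodule.smul_mem _ _ (Submodule.mem_span_singleton_self w))
  rw [h3, Submodule.finrank_sup_span_singleton hwR]

end Field

section Index

variable {F Z : Type*} [Field F] [AddCommGroup Z] [Module F Z]

theorem index_pow {s : End F Z} (hs : Function.Injective s) [FiniteDimensional F (Z ⧸ range s)]
    (n : ℕ) : FiniteDimensional F (Z ⧸ range (s ^ n)) ∧ index (s ^ n) = n * index s := by
  induction n with
  | zero =>
    rw [pow_zero, Module.End.one_eq_id, range_id]
    exact ⟨inferInstance, by simp⟩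
  | succ n ih =>
    obtain ⟨h1, h2⟩ := ih
    have h3 : FiniteDimensional F (ker s) := by rw [ker_eq_bot.2 hs]; infer_instance
    have h4 : FiniteDimensional F (ker (s ^ n)) := by
      rw [ker_eq_bot.2 (Module.End.iterate_injective hs n)]; infer_instance
    rw [pow_succ', Module.End.mul_eq_comp]
    exact ⟨by rw [range_comp]; infer_instance, by rw [index_comp, h2]; push_cast; ring⟩

theorem finrank_quot_eq {s ψ : End F Z} {p : ℕ} (hp : 0 < p) (hs : Function.Injective s)
    [FiniteDimensional F (Z ⧸ range s)] (h : ψ ^ p = s ^ p) :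
    FiniteDimensional F (Z ⧸ range ψ) ∧ finrank F (Z ⧸ range ψ) = finrank F (Z ⧸ range s) := by
  obtain ⟨q, rfl⟩ : ∃ q, p = q + 1 := ⟨p - 1, by omega⟩
  have hψ : Function.Injective ψ := by
    have := Module.End.iterate_injective hs (q + 1)
    rw [← h, pow_succ, Module.End.mul_eq_comp, coe_comp] at this
    exact this.of_comp
  obtain ⟨h1, h2⟩ := index_pow hs (q + 1)
  have hle : range (s ^ (q + 1)) ≤ range ψ := by
    rw [← h, pow_succ', Module.End.mul_eq_comp]; exact range_comp_le_range _ _
  have h3 : FiniteDimensional F (Z ⧸ range ψ) :=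
    Module.Finite.of_surjective _ (Submodule.factor_surjective hle)
  refine ⟨h3, ?_⟩
  have h4 := (index_pow hψ (q + 1)).2
  rw [h, h2, index_of_injective hs, index_of_injective hψ] at h4
  have h5 := mul_left_cancel₀ (by positivity) h4
  omega

end Index

section Perturb

variable {F V : Type*} [Field F] [AddCommGroup V] [Module F V]

/-- Substitution of an endomorphism for the variable. -/
noncomputable def evb (β : End F V) : F[X] ⊗[F] V →ₗ[F] V :=
  TensorProduct.lift (aeval β).toLinearMap

theorem evb_tmul (β : End F V) (f : F[X]) (v : V) : evb β (f ⊗ₜ v) = aeval β f v := rfl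

theorem evb_one_tmul (β : End F V) (v : V) : evb β (1 ⊗ₜ v) = v := by simp [evb_tmul]

theorem evb_baseChange {β α : End F V} (h : Commute α β) (m : F[X] ⊗[F] V) :
    evb β (α.baseChange F[X] m) = α (evb β m) := by
  induction m with
  | zero => simp
  | add x y hx hy => simp [hx, hy]
  | tmul f v =>
    have : Commute α (aeval β f) := by
      induction f using Polynomial.induction_on' with
      | add f g hf hg => rw [map_add]; exact hf.add_right hg
      | monomial n a =>
        rw [aeval_monomial]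
        exact (Algebra.commute_algebraMap_right a α).mul_right (h.pow_right n)
    rw [baseChange_tmul, evb_tmul, evb_tmul, ← Module.End.mul_apply, ← this.eq,
      Module.End.mul_apply]

theorem evb_X_smul (β : End F V) (m : F[X] ⊗[F] V) : evb β ((X : F[X]) • m) = β (evb β m) := by
  induction m with
  | zero => simp
  | add x y hx hy => simp [hx, hy]
  | tmul f v => rw [TensorProduct.smul_tmul', evb_tmul, evb_tmul]; simp

theorem exists_eq_evb (β : End F V) (m : F[X] ⊗[F] V) :
    ∃ w, m = 1 ⊗ₜ evb β m + ((X : F[X]) • w - β.baseChange F[X] w) := by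
  have key : ∀ m : F[X] ⊗[F] V, ∃ v w, m = 1 ⊗ₜ v + ((X : F[X]) • w - β.baseChange F[X] w) := by
    intro m
    induction m with
    | zero => exact ⟨0, 0, by simp⟩
    | add x y hx hy =>
      obtain ⟨v, w, rfl⟩ := hx
      obtain ⟨v', w', rfl⟩ := hy
      exact ⟨v + v', w + w', by rw [TensorProduct.tmul_add, smul_add, map_add]; abel⟩
    | tmul f v =>
      induction f using Polynomial.induction_on' generalizing v with
      | add f g hf hg =>
        obtain ⟨v₁, w, h1⟩ := hf v
        obtain ⟨v', w', h2⟩ := hg v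
        exact ⟨v₁ + v', w + w', by
          rw [TensorProduct.add_tmul, h1, h2, TensorProduct.tmul_add, smul_add, map_add]; abel⟩
      | monomial n a =>
        induction n generalizing v with
        | zero => exact ⟨a • v, 0, by
            rw [← TensorProduct.smul_tmul]; simp [Polynomial.smul_eq_C_mul]⟩
        | succ n ih =>
          obtain ⟨v₁, w, h1⟩ := ih (β v)
          refine ⟨v₁, w + monomial n a ⊗ₜ v, ?_⟩
          rw [smul_add, map_add, baseChange_tmul, h1, TensorProduct.smul_tmul', smul_eq_mul,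
            X_mul_monomial]
          abel
  obtain ⟨v, w, rfl⟩ := key m
  exact ⟨w, by rw [map_add, map_sub, evb_X_smul, evb_baseChange (Commute.refl β), evb_one_tmul,
    sub_self, add_zero]⟩

theorem commute_baseChange {α β : End F V} (h : Commute α β) :
    Commute (α.baseChange F[X]) (β.baseChange F[X]) := by
  rw [Commute, SemiconjBy, ← baseChange_mul, h.eq, baseChange_mul]

theorem perturb_aux [FiniteDimensional F V] {M : Type*} [AddCommGroup M] [Module F[X] M]
    [Module F M] [IsScalarTower F F[X] M] [Module.Free F[X] M] [Module.Finite F[X] M] {p : ℕ}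
    (hp : p.Prime) {α β δ : End F V} (hM : finrank F[X] M = finrank F V) (Φ ψ : End F[X] M)
    (ev : End F V → M →ₗ[F] V) (ι : V →ₗ[F] M) (hΦp : Φ ^ p = 0) (hψp : ψ ^ p = (X : F[X]) ^ p • 1)
    (hΦψ : Commute Φ ψ) (hev0 : ∀ m, ev 0 (Φ m) = α (ev 0 m)) (hevβ : ∀ m, ev β (Φ m) = δ (ev β m))
    (hevX : ∀ m, ev 0 ((X : F[X]) • m) = (0 : End F V) (ev 0 m)) (hevι : ∀ v, ev β (ι v) = v)
    (hex0 : ∀ m, ∃ w, m = ι (ev 0 m) + (X : F[X]) • w) (hexβ : ∀ m, ∃ w, m = ι (ev β m) + ψ w)
    (heψ : ∀ m, ev β (ψ m) = 0) (hd : p * finrank F (ker α) < finrank F V + p) :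
    finrank F (ker δ) ≤ finrank F (ker α) := by
  have hXinj : ∀ m : M, (X : F[X]) • m = 0 → m = 0 := fun m hm =>
    (smul_eq_zero.1 hm).resolve_left X_ne_zero
  have hker0 : ∀ m : M, ev 0 m = 0 → ∃ w, m = (X : F[X]) • w := fun m hm => by
    obtain ⟨w, hw⟩ := hex0 m
    exact ⟨w, by rw [hw, hm]; simp⟩
  have hkerZ : ∀ z : ker Φ, ev 0 (z : M) = 0 → ∃ w : ker Φ, z = (X : F[X]) • w := by
    intro z hz
    obtain ⟨w, hw⟩ := hker0 _ hz
    refine ⟨⟨w, hXinj _ ?_⟩, Subtype.ext hw⟩
    rw [← map_smul, ← hw]; exact z.2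
  -- evaluation at zero on the kernel
  let e0 : ker Φ →ₗ[F] ker α := ((ev 0).comp ((ker Φ).subtype.restrictScalars F)).codRestrict _
    fun z => by
      rw [mem_ker]
      change α (ev 0 (z : M)) = 0
      rw [← hev0, mem_ker.1 z.2, map_zero]
  have he0 : ∀ z : ker Φ, (e0 z : V) = ev 0 (z : M) := fun z => rfl
  have hsurj : Function.Surjective e0 := by
    let b := Module.finBasis F[X] (ker Φ)
    have hli : LinearIndependent F fun i => e0 (b i) := by
      rw [Fintype.linearIndependent_iff]
      intro c hc i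
      obtain ⟨w, hw⟩ := hkerZ (∑ j, c j • b j) (by
        rw [← he0, map_sum]
        simp only [map_smul]
        rw [hc]; rfl)
      have h1 : b.repr (∑ j, c j • b j) i = C (c i) := by
        have : ∀ j, c j • b j = (C (c j) : F[X]) • b j := fun j => by
          rw [← algebraMap_smul F[X] (c j) (b j)]; rfl
        simp only [this]
        exact congrFun (b.repr_sum_self fun j => C (c j)) i
      rw [hw, map_smul, Finsupp.smul_apply, smul_eq_mul] at h1
      have := congrArg (fun f : F[X] => f.coeff 0) h1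
      simpa using this.symm
    have h1 := finrank_le_mul_ker hΦp
    rw [hM] at h1
    have h2 := hli.fintype_card_le_finrank
    rw [Fintype.card_fin] at h2
    have h3 : finrank F (ker α) < finrank F[X] (ker Φ) + 1 := by
      apply Nat.lt_of_mul_lt_mul_left (a := p)
      rw [mul_add]; omega
    have h4 := hli.span_eq_top_of_card_eq_finrank' (by rw [Fintype.card_fin]; omega)
    rw [← range_eq_top, eq_top_iff, ← h4, Submodule.span_le]
    rintro _ ⟨i, rfl⟩
    exact ⟨b i, rfl⟩
  -- the cokernel has no torsion at zero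
  have htf : ∀ m, (X : F[X]) • m ∈ range Φ → m ∈ range Φ := by
    rintro m ⟨w, hw⟩
    obtain ⟨z, hz⟩ := hsurj ⟨ev 0 w, by rw [mem_ker, ← hev0, hw, hevX]; rfl⟩
    obtain ⟨w', hw'⟩ := hker0 (w - z) (by rw [map_sub, ← he0, hz, sub_self])
    refine ⟨w', sub_eq_zero.1 (hXinj _ ?_)⟩
    rw [smul_sub, ← map_smul, ← hw', map_sub, mem_ker.1 z.2, hw]; simp
  have htf' : ∀ n : ℕ, ∀ m, (X : F[X]) ^ n • m ∈ range Φ → m ∈ range Φ := by
    intro n
    induction n with
    | zero => simp
    | succ n ih => intro m hm; rw [pow_succ', mul_smul] at hm; exact ih m (htf _ hm)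
  have hψZ : ∀ z ∈ ker Φ, ψ z ∈ ker Φ := fun z hz => by
    rw [mem_ker, ← Module.End.mul_apply, hΦψ.eq, Module.End.mul_apply, mem_ker.1 hz, map_zero]
  let ψZ : End F (ker Φ) := (ψ.restrict hψZ).restrictScalars F
  let sZ : End F (ker Φ) := ((X : F[X]) • (1 : End F[X] (ker Φ))).restrictScalars F
  have hsZ : ∀ z, sZ z = (X : F[X]) • z := fun z => rfl
  have hpow : ψZ ^ p = sZ ^ p := by
    ext z
    have h1 : ∀ n : ℕ, ((ψZ ^ n) z : M) = (ψ ^ n) z := fun n => by
      induction n with
      | zero => rfl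
      | succ n ih => rw [pow_succ', pow_succ', Module.End.mul_apply, Module.End.mul_apply, ← ih]; rfl
    have h2 : ∀ n : ℕ, ((sZ ^ n) z : M) = (X : F[X]) ^ n • (z : M) := fun n => by
      induction n with
      | zero => simp
      | succ n ih => rw [pow_succ', pow_succ', Module.End.mul_apply, mul_smul, ← ih]; rfl
    rw [h1, h2, hψp]; rfl
  have hrs : range sZ = ker e0 := by
    ext z
    constructor
    · rintro ⟨w, rfl⟩
      rw [mem_ker]
      apply Subtype.ext
      rw [he0, hsZ, Submodule.coe_smul, hevX]; rfl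
    · intro hz
      obtain ⟨w, hw⟩ := hkerZ z (by rw [← he0, mem_ker.1 hz]; rfl)
      exact ⟨w, hw.symm⟩
  have eQ : ((ker Φ) ⧸ range sZ) ≃ₗ[F] ker α :=
    (Submodule.quotEquivOfEq _ _ hrs).trans (e0.quotKerEquivOfSurjective hsurj)
  have : FiniteDimensional F ((ker Φ) ⧸ range sZ) := eQ.symm.finiteDimensional
  obtain ⟨hfin, hq⟩ := finrank_quot_eq hp.pos (s := sZ) (ψ := ψZ)
    (fun z w h => Subtype.ext (sub_eq_zero.1 (hXinj _ (by
      rw [smul_sub, sub_eq_zero]; exact congrArg Subtype.val h)))) hpow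
  let eβ : ker Φ →ₗ[F] V := (ev β).comp ((ker Φ).subtype.restrictScalars F)
  have hle : range ψZ ≤ ker eβ := by
    rintro _ ⟨z, rfl⟩
    exact heψ z
  have hsub : ker δ ≤ range ((range ψZ).liftQ eβ hle) := by
    rw [Submodule.range_liftQ]
    intro v hv
    obtain ⟨w, hw⟩ := hexβ (Φ (ι v))
    rw [hevβ, hevι, mem_ker.1 hv, map_zero, zero_add] at hw
    obtain ⟨w', hw'⟩ : w ∈ range Φ := htf' p w ⟨(ψ ^ (p - 1)) (ι v), by
      rw [← Module.End.mul_apply, (hΦψ.pow_right _).eq, Module.End.mul_apply, hw,
        ← Module.End.mul_apply, ← pow_succ, Nat.sub_add_cancel hp.pos, hψp]; rfl⟩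
    refine ⟨⟨ι v - ψ w', ?_⟩, ?_⟩
    · rw [mem_ker, map_sub, hw, ← Module.End.mul_apply, hΦψ.eq, Module.End.mul_apply, hw', sub_self]
    · change ev β (ι v - ψ w') = v
      rw [map_sub, heψ, hevι, sub_zero]
  calc _ ≤ _ := Submodule.finrank_mono hsub
    _ ≤ _ := finrank_range_le _
    _ = _ := hq.trans eQ.finrank_eq

/-- Perturbation of an operator of maximal rank. -/
theorem finrank_ker_add_mul_le [FiniteDimensional F V] {p : ℕ} (hp : p.Prime) (h0 : (p : F) = 0)
    {α β γ : End F V} (hαβ : Commute α β) (hαγ : Commute α γ) (hβγ : Commute β γ)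
    (hα : α ^ p = 0) (hβ : β ^ p = 0) (hγ : γ ^ p = 0)
    (hd : p * finrank F (ker α) < finrank F V + p) :
    finrank F (ker (α + β * γ)) ≤ finrank F (ker α) := by
  have hE : (p : End F[X] (F[X] ⊗[F] V)) = 0 := natCast_end_eq_zero (by
    rw [← map_natCast (C : F →+* F[X]), h0, map_zero])
  refine perturb_aux (M := F[X] ⊗[F] V) (β := β) hp Module.finrank_baseChange
    (α.baseChange F[X] + (X : F[X]) • γ.baseChange F[X]) ((X : F[X]) • 1 - β.baseChange F[X])
    evb (TensorProduct.mk F F[X] V 1) ?_ ?_ ?_ (fun m => ?_) (fun m => ?_) (evb_X_smul 0)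
    (evb_one_tmul β) (fun m => ?_) (exists_eq_evb β) (fun m => ?_) hd
  · rw [add_pow_p hp hE ((commute_baseChange hαγ).smul_right _), smul_pow, ← baseChange_pow,
      ← baseChange_pow, hα, hγ]; simp
  · rw [sub_pow_p hp hE ((Commute.one_left _).smul_left _), smul_pow, ← baseChange_pow, hβ]
    simp
  · refine LinearMap.ext fun m => ?_
    have h1 := LinearMap.congr_fun (commute_baseChange hαβ).eq m
    have h2 := LinearMap.congr_fun (commute_baseChange hβγ).eq m
    simp only [Module.End.mul_apply] at h1 h2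
    simp only [Module.End.mul_apply, add_apply, sub_apply, smul_apply, Module.End.one_apply,
      map_sub, map_add, map_smul, h1, h2, smul_add, smul_sub]
    abel
  · rw [add_apply, map_add, smul_apply, evb_X_smul, evb_baseChange (Commute.zero_right α)]
    simp
  · rw [add_apply, map_add, smul_apply, evb_X_smul, evb_baseChange hαβ, evb_baseChange hβγ.symm]
    simp
  · obtain ⟨w, hw⟩ := exists_eq_evb 0 m
    exact ⟨w, by simpa using hw⟩
  · rw [sub_apply, smul_apply, Module.End.one_apply, map_sub, evb_X_smul,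
      evb_baseChange (Commute.refl β), sub_self]

/-- Several perturbations. -/
theorem finrank_ker_add_sum_le [FiniteDimensional F V] {p : ℕ} (hp : p.Prime) (h0 : (p : F) = 0)
    {ι : Type*} (s : Finset ι) {α : End F V} {β γ : ι → End F V} (hαβ : ∀ i, Commute α (β i))
    (hαγ : ∀ i, Commute α (γ i)) (hβγ : ∀ i j, Commute (β i) (γ j))
    (hββ : ∀ i j, Commute (β i) (β j)) (hγγ : ∀ i j, Commute (γ i) (γ j))
    (hα : α ^ p = 0) (hβ : ∀ i, β i ^ p = 0) (hγ : ∀ i, γ i ^ p = 0)
    (hd : p * finrank F (ker α) < finrank F V + p) :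
    finrank F (ker (α + ∑ i ∈ s, β i * γ i)) ≤ finrank F (ker α) := by
  classical
  have hE : (p : End F V) = 0 := natCast_end_eq_zero h0
  induction s using Finset.induction_on with
  | empty => rw [Finset.sum_empty, add_zero]
  | insert a s ha ih =>
    rw [Finset.sum_insert ha, add_comm (β a * γ a), ← add_assoc]
    refine le_trans (finrank_ker_add_mul_le hp h0 ?_ ?_ (hβγ a a) ?_ (hβ a) (hγ a) ?_) ih
    · exact (hαβ a).add_left (Commute.sum_left _ _ _ fun j _ => (hββ j a).mul_left (hβγ a j).symm)
    · exact (hαγ a).add_left (Commute.sum_left _ _ _ fun j _ => (hβγ j a).mul_left (hγγ j a))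
    · rw [add_pow_p hp hE (Commute.sum_right _ _ _ fun j _ => (hαβ j).mul_right (hαγ j)), hα,
        sum_pow_p_eq_zero hp hE s, add_zero]
      · exact fun i j => ((hββ i j).mul_right (hβγ i j)).mul_left
          ((hβγ j i).symm.mul_right (hγγ i j))
      · exact fun i => by rw [(hβγ i i).mul_pow, hβ, zero_mul]
    · exact lt_of_le_of_lt (Nat.mul_le_mul_left p ih) hd

end Perturb

end Cfsg.Lib.Dade
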