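import Cfsg.Agent.Dade.Nil
import Mathlib.LinearAlgebra.Matrix.Permutation
import Mathlib.LinearAlgebra.Matrix.Rank
import Mathlib.GroupTheory.GroupAction.Quotient
import Mathlib.GroupTheory.OrderOfElement
import Mathlib.RingTheory.MvPolynomial.Basic
import Mathlib.Algebra.MvPolynomial.Eval
import Mathlib.Data.Nat.Prime.Int
import Mathlib.RingTheory.PrincipalIdealDomain

/-!
# The generic nilpotent operator on a permutation module
-/

set_option autoImplicit false

open Module Matrix LinearMap

namespace Cfsg.Lib.Dade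

/-- The rank of a matrix does not go up under specialisation. -/
theorem rank_map_le {k A F Y : Type*} [Field k] [CommRing A] [Algebra k A] [Field F] [Fintype Y]
    (f : A →+* F) (hf : Function.Injective f) (ev : A →ₐ[k] k) (T : Matrix Y Y A) :
    (T.map ev).rank ≤ (T.map f).rank := by
  classical
  obtain ⟨V, U, e, -, -, h⟩ := exists_rank_normal_form (T.map ev)
  let r : Fin (T.map ev).rank → Y := fun i => e.symm (Sum.inl i)
  let S := V.map (algebraMap k A) * T * U.map (algebraMap k A)
  have h1 : (S.submatrix r r).map ev = 1 := by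
    have : S.map ev = V * T.map ev * U := by
      have h2 : ∀ W : Matrix Y Y k, (W.map (algebraMap k A)).map ev = W := fun W => by
        ext i j; simp
      simp only [S, Matrix.map_mul, h2]
    rw [← submatrix_map, this, h]
    ext i j
    simp [r, one_apply]
  have h2 : (S.submatrix r r).det ≠ 0 := fun h0 => by
    have := RingHom.map_det (ev : A →+* k) (S.submatrix r r)
    rw [h0, map_zero, RingHom.mapMatrix_apply] at this
    change 0 = ((S.submatrix r r).map ev).det at this
    rw [h1, det_one] at this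
    exact zero_ne_one this
  have h3 : ((S.submatrix r r).map f).rank = (T.map ev).rank := by
    rw [rank_of_det_ne_zero, Fintype.card_fin]
    rw [← RingHom.mapMatrix_apply, ← RingHom.map_det]
    exact (map_ne_zero_iff f hf).2 h2
  rw [← h3, ← submatrix_map]
  refine (rank_submatrix_le _ _ _).trans ?_
  simp only [S, Matrix.map_mul]
  exact (rank_mul_le_left _ _).trans (rank_mul_le_right _ _)

theorem finrank_ker_map_le {k A F Y : Type*} [Field k] [CommRing A] [Algebra k A] [Field F]
    [Fintype Y] (f : A →+* F) (hf : Function.Injective f) (ev : A →ₐ[k] k) (T : Matrix Y Y A) :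
    finrank F (ker (T.map f).mulVecLin) ≤ finrank k (ker (T.map ev).mulVecLin) := by
  have h1 := finrank_range_add_finrank_ker (T.map f).mulVecLin
  have h2 := finrank_range_add_finrank_ker (T.map ev).mulVecLin
  have h3 := rank_map_le f hf ev T
  rw [Module.finrank_fintype_fun_eq_card] at h1 h2
  unfold Matrix.rank at h3
  omega

section Perm

variable {F X Y : Type*} [Field F] [Fintype X] {p : ℕ}

/-- The operator `∑ t x • (τ x - 1)` on functions. -/
noncomputable def DY (t : X → F) (τ : X → Equiv.Perm Y) : End F (Y → F) :=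
  ∑ x, t x • (funLeft F F (τ x) - 1)

theorem DY_apply (t : X → F) (τ : X → Equiv.Perm Y) (f : Y → F) (g : Y) :
    DY t τ f g = ∑ x, t x * (f (τ x g) - f g) := by
  simp [DY, LinearMap.sum_apply, funLeft_apply]

theorem funLeft_pow (c : Equiv.Perm Y) (n : ℕ) :
    (funLeft F F c : End F (Y → F)) ^ n = funLeft F F (c ^ n) := by
  induction n with
  | zero => ext; simp [funLeft_apply]
  | succ n ih => rw [pow_succ', ih, pow_succ]; rfl

theorem DY_pow (hp : p.Prime) (h0 : (p : F) = 0) (t : X → F) {τ : X → Equiv.Perm Y}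
    (hc : ∀ x x', Commute (τ x) (τ x')) (hτ : ∀ x, τ x ^ p = 1) : DY t τ ^ p = 0 := by
  have hE : (p : End F (Y → F)) = 0 := natCast_end_eq_zero h0
  refine sum_pow_p_eq_zero hp hE _ (fun x x' => ?_) fun x => ?_
  · have : Commute (funLeft F F (τ x) : End F (Y → F)) (funLeft F F (τ x')) := by
      refine LinearMap.ext fun f => funext fun g => ?_
      change f (τ x' (τ x g)) = f (τ x (τ x' g))
      rw [← Equiv.Perm.mul_apply, ← (hc x x').eq, Equiv.Perm.mul_apply]
    exact (((this.sub_right (Commute.one_right _)).sub_left (Commute.one_left _)).smul_left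
      _).smul_right _
  · rw [smul_pow, sub_pow_p hp hE (Commute.one_right _), funLeft_pow, hτ, one_pow]
    convert smul_zero _
    exact sub_eq_zero.2 rfl

theorem apply_ne_of_pow (hp : p.Prime) {c : Equiv.Perm Y} (hc : c ^ p = 1) {g : Y} (hg : c g ≠ g)
    {n : ℤ} (h : (c ^ n) g = g) : c ^ n = 1 := by
  have h1 : orderOf c = p := by
    have := Fact.mk hp
    exact orderOf_eq_prime hc fun h => hg (by rw [h]; rfl)
  by_contra hn
  rw [← orderOf_dvd_iff_zpow_eq_one, h1] at hn
  obtain ⟨a, b, hab⟩ := ((Nat.prime_iff_prime_int.1 hp).coprime_iff_not_dvd.2 hn)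
  apply hg
  have h2 : c = (c ^ n) ^ b := by
    have : c ^ (a * p + b * n) = c := by rw [hab, zpow_one]
    rw [zpow_add, mul_comm a, zpow_mul, zpow_natCast, hc, one_zpow, one_mul, mul_comm,
      zpow_mul] at this
    exact this.symm
  rw [h2]
  exact Equiv.Perm.zpow_apply_eq_self_of_apply_eq_self h b

theorem mul_finrank_ker_le [Fintype Y] (hp : p.Prime) {c : Equiv.Perm Y} (hc : c ^ p = 1)
    (hg : ∀ g, c g ≠ g) :
    p * finrank F (ker (funLeft F F c - 1 : End F (Y → F))) ≤ Fintype.card Y := by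
  classical
  rcases isEmpty_or_nonempty Y with _ | ⟨⟨g₀⟩⟩
  · have := Submodule.finrank_le (ker (funLeft F F c - 1 : End F (Y → F)))
    rw [Module.finrank_fintype_fun_eq_card, Fintype.card_eq_zero, Nat.le_zero] at this
    simp [this]
  have h1 : orderOf c = p := by
    have := Fact.mk hp
    exact orderOf_eq_prime hc fun h => hg g₀ (by rw [h]; rfl)
  let Q := Quotient (MulAction.orbitRel (Subgroup.zpowers c) Y)
  have e : Y ≃ Q × Subgroup.zpowers c := MulAction.selfEquivOrbitsQuotientProd fun g => by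
    rw [eq_bot_iff]
    rintro ⟨_, n, rfl⟩ h
    exact Subtype.ext (apply_ne_of_pow hp hc (hg g) h)
  have h2 : Fintype.card Y = Nat.card Q * p := by
    rw [← Nat.card_eq_fintype_card, Nat.card_congr e, Nat.card_prod, Nat.card_zpowers, h1]
  have := Fintype.ofFinite Q
  have h3 : finrank F (ker (funLeft F F c - 1 : End F (Y → F))) ≤ finrank F (Q → F) := by
    refine LinearMap.finrank_le_finrank_of_injective
      (f := (funLeft F F (Quotient.out : Q → Y)).comp (Submodule.subtype _)) ?_
    rw [← ker_eq_bot, eq_bot_iff]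
    rintro ⟨f, hf⟩ h
    have h4 : ∀ g, f (c g) = f g := fun g => sub_eq_zero.1 (congrFun (mem_ker.1 hf) g)
    have h5 : ∀ (n : ℕ) g, f ((c ^ n) g) = f g := fun n => by
      induction n with
      | zero => simp
      | succ n ih => intro g; rw [pow_succ', Equiv.Perm.mul_apply, h4, ih]
    refine Subtype.ext (funext fun g => ?_)
    obtain ⟨⟨d, hd⟩, hdg⟩ : (MulAction.orbitRel (Subgroup.zpowers c) Y) (Quotient.mk _ g : Q).out g :=
      Quotient.exact (Quotient.out_eq _)
    obtain ⟨n, rfl⟩ := (mem_powers_iff_mem_zpowers.2 hd)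
    have h6 : f (Quotient.mk _ g : Q).out = 0 := congrFun (mem_ker.1 h) (Quotient.mk _ g)
    rw [← hdg] at h6
    exact (h5 n g).symm.trans h6
  rw [Module.finrank_fintype_fun_eq_card, ← Nat.card_eq_fintype_card] at h3
  rw [h2, mul_comm]
  exact Nat.mul_le_mul_right p h3

variable {k : Type*} [Field k]

theorem map_mulVecLin_eq_DY [Fintype Y] [DecidableEq Y] (f : MvPolynomial X k →+* F)
    (τ : X → Equiv.Perm Y) :
    ((∑ x, (MvPolynomial.X x : MvPolynomial X k) • ((τ x).permMatrix _ - 1) :
      Matrix Y Y (MvPolynomial X k)).map f).mulVecLin = DY (fun x => f (MvPolynomial.X x)) τ := by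
  have h : (∑ x, (MvPolynomial.X x : MvPolynomial X k) • ((τ x).permMatrix _ - 1) :
      Matrix Y Y (MvPolynomial X k)).map f =
      ∑ x, f (MvPolynomial.X x) • ((τ x).permMatrix F - 1) := by
    ext i j
    simp [Matrix.sum_apply, one_apply, PEquiv.toMatrix_apply, apply_ite f]
  refine LinearMap.ext fun v => funext fun g => ?_
  rw [h, DY_apply, mulVecLin_apply, sum_mulVec]
  simp [smul_mulVec, sub_mulVec, permMatrix_mulVec]

theorem ker_DY_le_of_free [Finite Y] (hp : p.Prime) (h0 : (p : F) = 0)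
    (f : MvPolynomial X k →+* F) (hf : Function.Injective f) {τ : X → Equiv.Perm Y}
    (hc : ∀ x x', Commute (τ x) (τ x')) (hτ : ∀ x, τ x ^ p = 1) (x₀ : X) (hx : ∀ g, τ x₀ g ≠ g) :
    ker (DY (fun x => f (MvPolynomial.X x)) τ) ≤
      range (DY (fun x => f (MvPolynomial.X x)) τ ^ (p - 1)) := by
  classical
  have := Fintype.ofFinite Y
  refine ker_le_range_of_mul_le hp.pos (DY_pow hp h0 _ hc hτ) ?_
  have h1 := finrank_ker_map_le f hf (MvPolynomial.aeval (Pi.single x₀ (1 : k)))
    (∑ x, (MvPolynomial.X x : MvPolynomial X k) • ((τ x).permMatrix _ - 1))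
  have h2 := map_mulVecLin_eq_DY
    (MvPolynomial.aeval (Pi.single x₀ (1 : k)) : MvPolynomial X k →ₐ[k] k).toRingHom τ
  have h3 : DY (fun x => (MvPolynomial.aeval (Pi.single x₀ (1 : k)) :
      MvPolynomial X k →ₐ[k] k).toRingHom (MvPolynomial.X x)) τ = funLeft k k (τ x₀) - 1 := by
    rw [DY, Finset.sum_eq_single x₀] <;> simp +contextual
  rw [map_mulVecLin_eq_DY] at h1
  rw [h3] at h2
  erw [h2] at h1
  rw [Module.finrank_fintype_fun_eq_card]
  exact (Nat.mul_le_mul_left p h1).trans (mul_finrank_ker_le hp (hτ x₀) hx)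

/-- The kernel of the generic operator is spanned by the fixed points and the norms. -/
theorem exists_of_DY_eq_zero [Finite Y] (hp : p.Prime) (h0 : (p : F) = 0)
    (f : MvPolynomial X k →+* F) (hf : Function.Injective f) {τ : X → Equiv.Perm Y}
    (hc : ∀ x x', Commute (τ x) (τ x')) (hτ : ∀ x, τ x ^ p = 1) {v : Y → F}
    (hv : DY (fun x => f (MvPolynomial.X x)) τ v = 0) : ∃ v₀ w, (∀ g, v₀ g ≠ 0 → ∀ x, τ x g = g) ∧
      v = v₀ + (DY (fun x => f (MvPolynomial.X x)) τ ^ (p - 1)) w := by
  classical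
  set t := fun x => f (MvPolynomial.X x)
  suffices h : ∀ s : Finset X, ∃ v₀ w, DY t τ v₀ = 0 ∧ (∀ g, v₀ g ≠ 0 → ∀ x ∈ s, τ x g = g) ∧
      v = v₀ + (DY t τ ^ (p - 1)) w by
    obtain ⟨v₀, w, -, h1, h2⟩ := h Finset.univ
    exact ⟨v₀, w, fun g hg x => h1 g hg x (Finset.mem_univ _), h2⟩
  intro s
  induction s using Finset.induction_on with
  | empty => exact ⟨v, 0, hv, by simp, by simp⟩
  | insert x₀ s _ ih =>
    obtain ⟨v₀, w, h1, h2, h3⟩ := ih
    have hst : ∀ x g, τ x₀ (τ x g) ≠ τ x g ↔ τ x₀ g ≠ g := fun x g => by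
      rw [← Equiv.Perm.mul_apply, (hc x₀ x).eq, Equiv.Perm.mul_apply, (τ x).injective.ne_iff]
    let τ' : X → Equiv.Perm {g // τ x₀ g ≠ g} := fun x => (τ x).subtypePerm (hst x)
    let ex : ({g // τ x₀ g ≠ g} → F) →ₗ[F] Y → F :=
      { toFun := fun u g => if h : τ x₀ g ≠ g then u ⟨g, h⟩ else 0
        map_add' := fun u u' => by funext g; by_cases h : τ x₀ g = g <;> simp [h]
        map_smul' := fun c u => by funext g; by_cases h : τ x₀ g = g <;> simp [h] }
    have hex1 : ∀ u g (h : τ x₀ g ≠ g), ex u g = u ⟨g, h⟩ := fun u g h => dif_pos h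
    have hex0 : ∀ u g, ¬ τ x₀ g ≠ g → ex u g = 0 := fun u g h => dif_neg h
    have hD : ∀ u, DY t τ (ex u) = ex (DY t τ' u) := by
      intro u; funext g
      by_cases h : τ x₀ g ≠ g
      · rw [hex1 _ g h, DY_apply, DY_apply]
        refine Finset.sum_congr rfl fun x _ => ?_
        rw [hex1 _ g h, hex1 _ _ ((hst x g).2 h)]; rfl
      · rw [hex0 _ g h, DY_apply]
        refine Finset.sum_eq_zero fun x _ => ?_
        rw [hex0 _ g h, hex0 _ _ (fun h' => h ((hst x g).1 h')), sub_self, mul_zero]
    have hDn : ∀ (n : ℕ) u, (DY t τ ^ n) (ex u) = ex ((DY t τ' ^ n) u) := fun n => by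
      induction n with
      | zero => intro u; rfl
      | succ n ih => intro u; rw [pow_succ', pow_succ', Module.End.mul_apply, ih, hD]; rfl
    have h4 : DY t τ' (fun g => v₀ g) = 0 := by
      funext g
      have := congrFun h1 g
      rw [DY_apply] at this ⊢
      exact this
    obtain ⟨w', hw'⟩ := ker_DY_le_of_free hp h0 f hf (τ := τ')
      (fun x x' => by
        ext g
        exact congrArg (fun c : Equiv.Perm Y => c g) (hc x x').eq)
      (fun x => by
        rw [Equiv.Perm.subtypePerm_pow]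
        ext g
        exact congrArg (fun c : Equiv.Perm Y => c g) (hτ x))
      x₀ (fun g h => g.2 (congrArg Subtype.val h)) (mem_ker.2 h4)
    refine ⟨v₀ - ex fun g => v₀ g, w + ex w', by rw [map_sub, hD, h4, h1]; simp, ?_, ?_⟩
    · intro g hg x hx
      have h5 : ¬ τ x₀ g ≠ g := fun h => hg (by rw [Pi.sub_apply, hex1 _ g h, sub_self])
      rcases Finset.mem_insert.1 hx with rfl | hx
      · exact not_not.1 h5
      · exact h2 g (by rwa [Pi.sub_apply, hex0 _ g h5, sub_zero] at hg) x hx
    · rw [map_add, hDn, hw', h3]; abel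

end Perm

end Cfsg.Lib.Dade
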