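import Cfsg.Agent.Dade.Core
import Cfsg.Agent.Dade.Mat
import Cfsg.Agent.Block.PairDefect

/-!
# One step of the Dade–Glauberman correspondence with lifts
-/

set_option autoImplicit false

open scoped MonoidAlgebra
open Subgroup Cfsg.Lib.Block Cfsg.Lib.Block.Pair

namespace Cfsg.Lib.Dade

variable {k G E : Type*} [Field k] [Group G] [Group E]

/-- `s` lifts the action of `E` on the block `e` of `K` to the unit group of the block. -/
structure Lf (π : E →* G) (K : Subgroup G) (e : k[G]) (s : E → k[G]) : Prop where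
  norm : ∀ γ, π γ ∈ normalizer (K : Set G)
  stab : ∀ γ, π γ ∈ stab e
  supp : ∀ γ, SuppOn K (s γ)
  one : s 1 = e
  mul : ∀ γ δ, s (γ * δ) = s γ * s δ
  impl : ∀ γ a, SuppOn K a → s γ * a = cj (π γ) a * s γ

theorem cj_eq_of_mem_centralizer {K : Subgroup G} {g : G} (hg : g ∈ centralizer (K : Set G))
    {a : k[G]} (ha : SuppOn K a) : cj g a = a :=
  le_stab_of_suppOn_centralizer (P := centralizer (K : Set G))
    (ha.mono fun x hx y hy => (hy x hx).symm) hg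

/-- Functions on `K` as elements of the group algebra. -/
noncomputable def ofK (k : Type*) [Field k] (K : Subgroup G) [Fintype K] : (K → k) →ₗ[k] k[G] :=
  Fintype.linearCombination k fun g : K => MonoidAlgebra.single (g : G) 1

theorem coeff_ofK {K : Subgroup G} [Fintype K] (f : K → k) (g : K) : (ofK k K f).coeff g = f g := by
  classical
  simp [ofK, Fintype.linearCombination_apply, Finsupp.single_apply]

theorem suppOn_ofK {K : Subgroup G} [Fintype K] (f : K → k) : SuppOn K (ofK k K f) := by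
  intro x hx
  rw [ofK, Fintype.linearCombination_apply, MonoidAlgebra.coeff_sum, Finsupp.finsetSum_apply]
  exact Finset.sum_eq_zero fun g _ => suppOn_smul (suppOn_single g.2 1) _ x hx

theorem SuppOn.ext' {K : Subgroup G} {a b : k[G]} (ha : SuppOn K a) (hb : SuppOn K b)
    (h : ∀ g : K, a.coeff g = b.coeff g) : a = b := by
  ext g
  by_cases hg : g ∈ K
  · exact h ⟨g, hg⟩
  · rw [ha g hg, hb g hg]

namespace Lf

variable {π : E →* G} {K : Subgroup G} {e : k[G]} {s : E → k[G]} (h : Lf π K e s) (D : MD K e)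

/-- The projective representation attached to a lift. -/
noncomputable def rep : E →* Matrix (Fin D.n) (Fin D.n) k where
  toFun γ := D.Φ (s γ)
  map_one' := by rw [h.one, D.Φ_e]
  map_mul' γ δ := by rw [h.mul, D.Φ_mul (h.supp γ) (h.supp δ)]

include h in
theorem Φ_eq_one {p : ℕ} [Fact p.Prime] [CharP k p] {y : E} {m : ℕ} (hy : y ^ p ^ m = 1)
    (hc : π y ∈ centralizer (K : Set G)) : D.Φ (s y) = 1 := by
  obtain ⟨c, hc⟩ := D.exists_smul (h.supp y) fun b hb => by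
    rw [h.impl y b hb, cj_eq_of_mem_centralizer hc hb]
  have h1 : h.rep D y ^ p ^ m = 1 := by rw [← map_pow, hy, map_one]
  change D.Φ (s y) ^ p ^ m = 1 at h1
  rw [hc, smul_pow, one_pow] at h1
  have h2 := congrFun (congrFun h1 D.i₀) D.i₀
  simp only [Matrix.smul_apply, Matrix.one_apply_eq, smul_eq_mul, mul_one] at h2
  have h3 : (c - 1) ^ p ^ m = 0 := by rw [sub_pow_char_pow, h2, one_pow, sub_self]
  rw [hc, sub_eq_zero.1 (pow_eq_zero_iff (pow_ne_zero m (Fact.out : p.Prime).ne_zero) |>.1 h3),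
    one_smul]

include h in
theorem mul_eq_cj (γ : E) {a : k[G]} (ha : SuppOn K a) (hae : a * e = a) :
    s γ * a = cj (π γ) (a * s γ) := by
  have h1 : s γ * s γ⁻¹ = e := by rw [← h.mul, mul_inv_cancel, h.one]
  have h2 : s γ * e = s γ := by conv_rhs => rw [← mul_one γ, h.mul, h.one]
  have h3 := congrArg (· * s γ⁻¹) (h.impl γ _ (ha.mul (h.supp γ)))
  simp only [mul_assoc, h1, hae] at h3
  rw [h3]
  conv_lhs => rw [← mem_stab.1 (h.stab γ), ← map_mul, mul_assoc, h2]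

end Lf

/-- The pairs `(γ, u)` where `u` implements the action of `γ` on a block. -/
def ext (π : E →* G) {K : Subgroup G} {f : k[G]} (D : MD K f)
    (hn : ∀ γ, π γ ∈ normalizer (K : Set G)) :
    Subgroup (E × (Matrix (Fin D.n) (Fin D.n) k)ˣ) where
  carrier := {g | ∀ a, SuppOn K a → D.Ψ g.2 * a = cj (π g.1) a * D.Ψ g.2}
  one_mem' a ha := by simp [D.Ψ_one, D.comm a ha, cj_one]
  mul_mem' {g g'} hg hg' a ha := by
    rw [Prod.snd_mul, Prod.fst_mul, Units.val_mul, D.Ψ_mul, mul_assoc, hg' a ha, ← mul_assoc,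
      hg _ (suppOn_cj ha (hn _)), cj_cj, map_mul, mul_assoc]
  inv_mem' {g} hg a ha := by
    have hb := suppOn_cj ha (hn g⁻¹.1)
    have h1 := congrArg (fun x => D.Ψ g⁻¹.2 * x * D.Ψ g⁻¹.2) (hg _ hb)
    rw [Prod.fst_inv, map_inv, cj_cj_inv] at h1
    simp only [← mul_assoc, ← D.Ψ_mul] at h1
    rw [mul_assoc _ (D.Ψ _), ← D.Ψ_mul, Prod.snd_inv, Units.inv_mul, Units.mul_inv, D.Ψ_one,
      mul_assoc _ a, ← D.comm a ha, ← mul_assoc, D.Ψ_mul_e, ← map_inv, ← Prod.fst_inv,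
      D.comm _ hb, mul_assoc, D.e_mul_Ψ] at h1
    exact h1.symm

/-- A character of the extension that is the identity on scalars gives a lift. -/
theorem exists_lf {π : E →* G} {K : Subgroup G} {f : k[G]} (D : MD K f)
    (hn : ∀ γ, π γ ∈ normalizer (K : Set G)) (hs : ∀ γ, π γ ∈ stab f) (ν : ext π D hn →* kˣ)
    (hν : ∀ (g : ext π D hn) (c : k), g.1.1 = 1 → g.1.2.val = c • 1 →
      (ν g : k) * c = 1) :
    ∃ s, Lf π K f s ∧ ∀ g : ext π D hn, s g.1.1 = (ν g : k) • D.Ψ g.1.2 := by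
  choose u hu using fun γ => D.exists_unit (hn γ) (hs γ)
  let l : E → ext π D hn := fun γ => ⟨(γ, u γ), hu γ⟩
  let σ : ext π D hn →* Matrix (Fin D.n) (Fin D.n) k :=
    { toFun := fun g => (ν g : k) • g.1.2.val
      map_one' := by simp
      map_mul' := fun g g' => by simp [smul_smul, mul_comm] }
  have hσ : ∀ g, σ g = (ν g : k) • g.1.2.val := fun g => rfl
  have h1 : ∀ g g' : ext π D hn, g.1.1 = g'.1.1 → σ g = σ g' := fun g g' hg => by
    have h2 : (g⁻¹ * g').1.1 = 1 := by simp [hg]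
    obtain ⟨c, hc⟩ := D.exists_smul (D.supp (g⁻¹ * g').1.2) fun b hb => by
      rw [(g⁻¹ * g').2 b hb, h2, map_one, cj_one]
    rw [D.ΦΨ] at hc
    have h3 : σ (g⁻¹ * g') = 1 := by rw [hσ, hc, smul_smul, hν _ c h2 hc, one_smul]
    rw [← mul_inv_cancel_left g g', map_mul, h3, mul_one]
  refine ⟨fun γ => D.Ψ (σ (l γ)), ⟨hn, hs, fun γ => D.supp _, ?_, fun γ δ => ?_, fun γ a ha => ?_⟩,
    fun g => ?_⟩
  · rw [h1 (l 1) 1 rfl, map_one, D.Ψ_one]
  · rw [h1 (l (γ * δ)) (l γ * l δ) rfl, map_mul, D.Ψ_mul]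
  · rw [hσ, map_smul, smul_mul_assoc, mul_smul_comm, hu γ a ha]
  · beta_reduce
    rw [h1 (l g.1.1) g rfl, hσ, map_smul]

theorem step {p : ℕ} [hp : Fact p.Prime] [CharP k p] [Finite G] {π : E →* G} {K : Subgroup G}
    {e : k[G]} {s : E → k[G]} (h : Lf π K e s) (D : MD K e) {R : Subgroup E} [hRn : R.Normal]
    [Finite R] (hR : IsPGroup p R) (hab : ∀ x ∈ R, ∀ y ∈ R, x * y = y * x)
    (hpow : ∀ x ∈ R, π (x ^ p) ∈ centralizer (K : Set G)) {K₁ : Subgroup G} {f : k[G]}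
    (hK₁ : K₁ = K ⊓ centralizer (R.map π : Set G)) (hf : f = br (R.map π) e) (D₁ : MD K₁ f) :
    ∃ s₁, Lf π K₁ f s₁ ∧ ∀ γ (z : k), π γ ∈ K₁ → (∀ x ∈ R, γ * x = x * γ) →
      s γ = z • (MonoidAlgebra.single (π γ) 1 * e) →
      s₁ γ = z • (MonoidAlgebra.single (π γ) 1 * f) := by
  classical
  have := Fintype.ofFinite K
  have hle : K₁ ≤ K := hK₁ ▸ inf_le_left
  have hle' : K₁ ≤ centralizer (R.map π : Set G) := hK₁ ▸ inf_le_right
  have hRn' : ∀ γ, π γ ∈ normalizer (R.map π : Set G) := fun γ =>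
    le_normalizer_map π ⟨γ, by rw [normalizer_eq_top]; trivial, rfl⟩
  have hn : ∀ γ, π γ ∈ normalizer (K₁ : Set G) := fun γ =>
    hK₁ ▸ inf_normalizer_le_normalizer le_rfl _ ⟨h.norm γ, hRn' γ⟩
  have hs : ∀ γ, π γ ∈ stab f := fun γ =>
    hf ▸ stab_inf_normalizer_le_stab_br _ _ ⟨h.stab γ, hRn' γ⟩
  have hfx : ∀ x ∈ R, ∀ a : k[G], SuppOn K₁ a → cj (π x) a = a := fun x hx a ha =>
    le_stab_of_suppOn_centralizer (ha.mono hle') ⟨x, hx, rfl⟩
  have hbr : ∀ a : k[G], SuppOn K₁ a → br (R.map π) (a * e) = a * f := fun a ha => by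
    rw [br_mul (hR.map π) (le_stab_of_suppOn_centralizer (ha.mono hle'))
      (by rintro _ ⟨x, -, rfl⟩; exact h.stab x), br_eq_self (ha.mono hle'), hf]
  set i := D₁.Ψ (Matrix.single D₁.i₀ D₁.i₀ 1) with hi
  have hiK : SuppOn K₁ i := D₁.supp _
  have hii : i * i = i := by rw [hi, ← D₁.Ψ_mul, Matrix.single_mul_single_same, mul_one]
  have hi0 : i ≠ 0 := fun h0 => by
    have := congrFun (congrFun (D₁.Ψ_inj (h0.trans (map_zero _).symm)) D₁.i₀) D₁.i₀
    simp at this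
  have hia : ∀ a, SuppOn K₁ a → ∃ c : k, i * a * i = c • i := fun a ha =>
    ⟨D₁.Φ a D₁.i₀ D₁.i₀, by
      rw [hi, ← D₁.Ψ_mul_Φ ha, ← D₁.Ψ_mul, Matrix.single_mul_mul_single, ← map_smul]; simp⟩
  obtain ⟨m, X, Y, hXY, hYX⟩ := exists_rank_factor (P := D.Φ i)
    (by rw [← D.Φ_mul (hiK.mono hle) (hiK.mono hle), hii])
  have hX : D.Φ i * X = X := by rw [← hXY, Matrix.mul_assoc, hYX, Matrix.mul_one]
  have hY : Y * D.Φ i = Y := by rw [← hXY, ← Matrix.mul_assoc, hYX, Matrix.one_mul]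
  let pr : k[G] →ₗ[k] Matrix (Fin m) (Fin m) k :=
    { toFun := fun a => Y * D.Φ a * X
      map_add' := fun a b => by rw [map_add, Matrix.mul_add, Matrix.add_mul]
      map_smul' := fun c a => by rw [map_smul, Matrix.mul_smul, Matrix.smul_mul]; rfl }
  have hpr : ∀ a, pr a = Y * D.Φ a * X := fun a => rfl
  have hpr0 : ∀ a b, SuppOn K a → SuppOn K b → pr a * pr b = pr (a * i * b) := fun a b ha hb => by
    rw [hpr, hpr, hpr, D.Φ_mul (ha.mul (hiK.mono hle)) hb, D.Φ_mul ha (hiK.mono hle), ← hXY]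
    simp only [Matrix.mul_assoc]
  have hprl : ∀ a, SuppOn K a → pr (i * a) = pr a := fun a ha => by
    rw [hpr, hpr, D.Φ_mul (hiK.mono hle) ha, ← Matrix.mul_assoc, hY]
  have hprr : ∀ a, SuppOn K a → pr (a * i) = pr a := fun a ha => by
    rw [hpr, hpr, D.Φ_mul ha (hiK.mono hle), Matrix.mul_assoc, Matrix.mul_assoc, hX,
      Matrix.mul_assoc]
  have hpr1 : ∀ a b, SuppOn K a → SuppOn K b → a * i = i * a → pr (a * b) = pr a * pr b :=
    fun a b ha hb hc => by rw [hpr0 a b ha hb, hc, mul_assoc, hprl _ (ha.mul hb)]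
  have hpr2 : ∀ a b, SuppOn K a → SuppOn K b → i * b = b * i → pr (a * b) = pr a * pr b :=
    fun a b ha hb hc => by rw [hpr0 a b ha hb, mul_assoc, hc, ← mul_assoc, hprr _ (ha.mul hb)]
  have hpri : pr i = 1 := by rw [hpr, hY, hYX]
  have hpre : ∀ a, SuppOn K a → pr (a * e) = pr a := fun a ha => by
    rw [hpr, hpr, D.Φ_mul ha D.supp_e, D.Φ_e, mul_one]
  have hprf : pr f = 1 := by rw [← hprr _ (D₁.supp_e.mono hle), hi, D₁.e_mul_Ψ, ← hi, hpri]
  let t : ext π D₁ hn → k[G] := fun g => D₁.Ψ g⁻¹.1.2 * s g.1.1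
  have htK : ∀ g, SuppOn K (t g) := fun g => ((D₁.supp _).mono hle).mul (h.supp _)
  have htc : ∀ g a, SuppOn K₁ a → t g * a = a * t g := fun g a ha => by
    have h1 := g⁻¹.2 _ (suppOn_cj ha (hn g.1.1))
    rw [show g⁻¹.1.1 = g.1.1⁻¹ from rfl, map_inv, cj_inv_cj] at h1
    rw [mul_assoc, h.impl _ a (ha.mono hle), ← mul_assoc, h1, mul_assoc]
  let φ : ext π D₁ hn →* Matrix (Fin m) (Fin m) k :=
    { toFun := fun g => pr (t g)
      map_one' := by
        change pr (D₁.Ψ (1 : ext π D₁ hn)⁻¹.1.2 * s 1) = 1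
        rw [inv_one, h.one, hpre _ ((D₁.supp _).mono hle)]
        exact (congrArg pr D₁.Ψ_one).trans hprf
      map_mul' := fun g g' => by
        rw [← hpr1 _ _ (htK g) (htK g') (htc g i hiK)]
        congr 1
        change D₁.Ψ ((g'⁻¹.1.2 * g⁻¹.1.2 : (Matrix _ _ k)ˣ)) * s (g.1.1 * g'.1.1) =
          t g * (D₁.Ψ g'⁻¹.1.2 * s g'.1.1)
        rw [← mul_assoc, htc g _ (D₁.supp _), Units.val_mul, D₁.Ψ_mul, h.mul]
        simp only [t, mul_assoc] }
  have hφ : ∀ g, φ g = pr (D₁.Ψ g⁻¹.1.2 * s g.1.1) := fun g => rfl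
  let inl : R →* ext π D₁ hn := ((MonoidHom.inl _ _).comp R.subtype).codRestrict _ fun x a ha => by
    change D₁.Ψ 1 * a = cj (π x) a * D₁.Ψ 1
    rw [hfx x x.2 a ha, D₁.Ψ_one, D₁.comm a ha]
  have hsi : ∀ x : R, s x * i = i * s x := fun x => by
    rw [h.impl _ i (hiK.mono hle), hfx x x.2 i hiK]
  have hρ : ∀ x : R, φ (inl x) = pr (s x) := fun x => by
    rw [hφ, ← map_inv]
    change pr (D₁.Ψ 1 * s x) = _
    rw [D₁.Ψ_one, hpr2 _ _ (D₁.supp_e.mono hle) (h.supp _) (hsi x).symm, hprf, one_mul]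
  let α : E →* Equiv.Perm K := (MulAut.toPerm K).comp
    (K.normalizerMonoidHom.comp (π.codRestrict _ h.norm))
  have hα : ∀ γ (g : K), (α γ⁻¹ g : G) = (π γ)⁻¹ * g * π γ := fun γ g => by
    change π γ⁻¹ * g * (π γ⁻¹)⁻¹ = _
    rw [map_inv, inv_inv]
  let ι : Matrix (Fin m) (Fin m) k →ₗ[k] (K → k) :=
    { toFun := fun y g => (D.Ψ (X * y * Y)).coeff g
      map_add' := fun a b => by funext g; simp [Matrix.mul_add, Matrix.add_mul]
      map_smul' := fun c a => by funext g; simp }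
  have hι : ∀ y (g : K), ι y g = (D.Ψ (X * y * Y)).coeff g := fun y g => rfl
  obtain ⟨g₀, hg₀, hg₁⟩ := br_ne_zero_iff.1 (show br (R.map π) (i * e) ≠ 0 by
    rw [hbr i hiK, hi, D₁.Ψ_mul_e]; exact hi0)
  have hg₂ : g₀ ∈ K := ((hiK.mono hle).mul D.supp_e).mem hg₁
  have hfixed : ∀ g : K, (∀ x : R, α (x : E)⁻¹ g = g) ↔ (g : G) ∈ centralizer (R.map π : Set G) :=
    fun g => by
      refine ⟨fun hg => ?_, fun hg x => Subtype.ext ?_⟩
      · rintro _ ⟨x, hx, rfl⟩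
        have := congrArg Subtype.val (hg ⟨x, hx⟩)
        rw [hα, mul_assoc, inv_mul_eq_iff_eq_mul] at this
        exact this.symm
      · rw [hα, mul_assoc, ← hg _ ⟨x, x.2, rfl⟩, inv_mul_cancel_left]
  obtain ⟨ν, hν⟩ := core (k := k) (X := R) (Y := K) hp.out (CharP.cast_eq_zero k p)
    (ρ := fun x => φ (inl x)) (τ := fun x => α (x : E)⁻¹)
    (fun x x' => (Commute.map (Subtype.ext (hab x x.2 x' x'.2)) inl).map φ)
    (fun x => by
      obtain ⟨l, hl⟩ := hR x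
      rw [← map_pow, ← map_pow, hρ, hpr, coe_pow, h.Φ_eq_one D (m := l)
        (by rw [← pow_mul, mul_comm, pow_mul, ← coe_pow, hl, coe_one, one_pow]) (hpow x x.2),
        Matrix.mul_one, hYX])
    (fun x x' => (Commute.inv_inv (hab x x.2 x' x'.2)).map α)
    (fun x => by
      rw [← map_pow, inv_pow]
      ext g
      rw [hα, mul_assoc, hpow x x.2 g g.2, inv_mul_cancel_left]; rfl)
    ι (pr ∘ₗ ofK k K)
    (fun y => by
      rw [LinearMap.comp_apply, SuppOn.ext' (suppOn_ofK (ι y)) (D.supp (X * y * Y))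
        fun g => coeff_ofK _ g, hpr, D.ΦΨ]
      simp only [← Matrix.mul_assoc, hYX, Matrix.one_mul]
      rw [Matrix.mul_assoc, hYX, Matrix.mul_one])
    (fun x y g => by
      have h1 : X * (pr (s x) * y) * Y = D.Φ (s x) * (X * y * Y) := by
        rw [hpr]
        simp only [← Matrix.mul_assoc]
        rw [hXY, ← D.Φ_mul (hiK.mono hle) (h.supp _), ← hsi, D.Φ_mul (h.supp _) (hiK.mono hle),
          Matrix.mul_assoc _ _ X, hX]
      have h2 : X * (y * pr (s x)) * Y = X * y * Y * D.Φ (s x) := by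
        rw [hpr]
        simp only [Matrix.mul_assoc]
        rw [hXY, ← D.Φ_mul (h.supp _) (hiK.mono hle), hsi, D.Φ_mul (hiK.mono hle) (h.supp _),
          ← Matrix.mul_assoc Y, hY]
      rw [hι, hι, hρ, h1, h2, D.Ψ_Φ_mul (h.supp _), D.Ψ_mul_Φ (h.supp _), hα,
        h.mul_eq_cj _ (D.supp _) (D.Ψ_mul_e _), coeff_cj])
    (fun x y => by
      have h1 : ofK k K (fun g => y (α (x : E)⁻¹ g)) = cj (π x) (ofK k K y) :=
        SuppOn.ext' (suppOn_ofK _) (suppOn_cj (suppOn_ofK _) (h.norm _)) fun g => by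
          rw [coeff_ofK, coeff_cj, ← hα, coeff_ofK]
      rw [LinearMap.comp_apply, LinearMap.comp_apply, h1, hρ,
        ← hpr1 _ _ (h.supp _) (suppOn_ofK _) (hsi x), h.impl _ _ (suppOn_ofK _),
        hpr2 _ _ (suppOn_cj (suppOn_ofK _) (h.norm _)) (h.supp _) (hsi x).symm])
    (fun g hg => by
      have h1 : ofK k K (Pi.single g 1) = MonoidAlgebra.single (g : G) 1 := by
        simp [ofK, Fintype.linearCombination_apply_single]
      have h2 : SuppOn K₁ (MonoidAlgebra.single (g : G) (1 : k)) :=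
        suppOn_single (hK₁ ▸ ⟨g.2, (hfixed g).1 hg⟩) 1
      obtain ⟨c, hc⟩ := hia _ h2
      exact ⟨c, by rw [LinearMap.comp_apply, h1, ← hprl _ (h2.mono hle),
        ← hprr _ ((hiK.mul h2).mono hle), hc, map_smul, hpri]⟩)
    (g₀ := ⟨g₀, hg₂⟩) ((hfixed _).2 hg₀)
    (by rwa [hι, Matrix.mul_one, hXY, D.ΨΦ _ (hiK.mono hle)])
    ((MulAut.toPerm R).comp (MulAut.conjNormal.comp ((MonoidHom.fst _ _).comp (Subgroup.subtype _)))) φ
    (fun g x => by
      rw [← map_mul, ← map_mul]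
      congr 1
      refine Subtype.ext (Prod.ext ?_ ?_)
      · change g.1.1 * x = g.1.1 * x * g.1.1⁻¹ * g.1.1
        rw [inv_mul_cancel_right]
      · change g.1.2 * 1 = 1 * g.1.2
        rw [mul_one, one_mul])
  have hν' : ∀ (g : ext π D₁ hn) (z : k), (∀ x ∈ R, g.1.1 * x = x * g.1.1) → φ g = z • 1 →
      (ν g : k) = z := fun g z hg => hν g z (by
    ext x
    change g.1.1 * x * g.1.1⁻¹ = x
    rw [hg x x.2, mul_inv_cancel_right])
  obtain ⟨s₁, h₁, h₂⟩ := exists_lf D₁ hn hs ν fun g c hg hc => by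
    have h1 : c • g⁻¹.1.2.val = 1 := by
      rw [← one_mul g⁻¹.1.2.val, ← smul_mul_assoc, ← hc]; exact g.1.2.mul_inv
    have h2 : c • φ g = 1 := by
      rw [hφ, hg, h.one, hpre _ ((D₁.supp _).mono hle), ← map_smul, ← map_smul, h1, D₁.Ψ_one, hprf]
    have hc0 : c ≠ 0 := by
      rintro rfl
      have := congrFun (congrFun h1 D₁.i₀) D₁.i₀
      simp at this
    rw [hν' g c⁻¹ (by simp [hg]) (by rw [← h2, inv_smul_smul₀ hc0]), inv_mul_cancel₀ hc0]
  refine ⟨s₁, h₁, fun γ z hγ hc hz => ?_⟩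
  have h1 := suppOn_single hγ (1 : k)
  have h2 := suppOn_single (inv_mem hγ) (1 : k)
  let u : (Matrix (Fin D₁.n) (Fin D₁.n) k)ˣ :=
    ⟨D₁.Φ (MonoidAlgebra.single (π γ) 1), D₁.Φ (MonoidAlgebra.single (π γ)⁻¹ 1),
      D₁.Ψ_inj (by rw [← D₁.Φ_mul h1 h2, D₁.ΨΦ _ (h1.mul h2), D₁.Ψ_one]; simp [← MonoidAlgebra.one_def]),
      D₁.Ψ_inj (by rw [← D₁.Φ_mul h2 h1, D₁.ΨΦ _ (h2.mul h1), D₁.Ψ_one]; simp [← MonoidAlgebra.one_def])⟩
  let g : ext π D₁ hn := ⟨(γ, u), fun a ha => by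
    change D₁.Ψ (D₁.Φ _) * a = cj (π γ) a * D₁.Ψ (D₁.Φ _)
    rw [D₁.ΨΦ _ h1, mul_assoc, D₁.comm a ha, cj_eq_single_mul]
    simp only [← mul_assoc]
    rw [mul_assoc _ (MonoidAlgebra.single _ _) (MonoidAlgebra.single _ _)]
    simp [← MonoidAlgebra.one_def]⟩
  have h3 : φ g = z • 1 := by
    change pr (D₁.Ψ (D₁.Φ (MonoidAlgebra.single (π γ)⁻¹ 1)) * s γ) = _
    rw [D₁.ΨΦ _ h2, hz, mul_smul_comm, map_smul, ← D₁.comm _ h2, mul_assoc, ← mul_assoc _ _ e]
    simp [← MonoidAlgebra.one_def, hpre _ (D₁.supp_e.mono hle), hprf]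
  rw [show s₁ γ = _ from h₂ g, hν' g z hc h3]
  exact congrArg _ (D₁.ΨΦ _ h1)

end Cfsg.Lib.Dade
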