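import Cfsg.Agent.Dade.Lift
import Cfsg.Agent.Block.CoverDefect

/-!
# The character triple of the Glauberman correspondent
-/

set_option autoImplicit false

open scoped MonoidAlgebra ComplexConjugate
open Subgroup Cfsg.Lib.Char Cfsg.Lib.Block Cfsg.Lib.Block.Pair

namespace Cfsg.Lib.Dade

universe u w

variable {M : Ideal AlgInt} {p : ℕ} [hp : Fact p.Prime] {G : Type u} {A Q : Type*} [Group G]
  [Finite G] [Group A] [Group Q] {ι : A →* Q} {lam : A →* ℂˣ}

omit hp [Finite G] in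
theorem vM_lin_inv [Finite A] (lam : A →* ℂˣ) (a : A) : (lam a : ℂ)⁻¹ ^ Nat.card A = 1 := by
  rw [inv_pow, ← Units.val_pow_eq_pow_val, ← map_pow, pow_card_eq_one']; simp

/-- The modular form of the theorem. -/
theorem exists_lf_normalizer (hM : IsPModular p M) {K : Subgroup G} (hK : ¬ p ∣ Nat.card K)
    {θ : IrrCharacter K} (T : CTriple.{w} K.subtype (θ : K → ℂ) ι lam) (hA : ¬ p ∣ Nat.card A)
    {P : Subgroup G} (hP : IsPGroup p P) (hab : ∀ x ∈ P, ∀ y ∈ P, x * y = y * x) :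
    ∃ s, Lf (T.π.comp ((normalizer (P : Set G)).comap T.π).subtype) (K ⊓ centralizer (P : Set G))
        (br P (hat M K {θ})) s ∧
      (∀ γ (n : K), γ.1 = T.j n → (n : G) ∈ centralizer (P : Set G) →
        s γ = MonoidAlgebra.single (n : G) 1 * br P (hat M K {θ})) ∧
      ∀ γ a, γ.1 = T.b a → s γ = redM M (lam a : ℂ)⁻¹ • br P (hat M K {θ}) := by
  obtain ⟨s, hs, hsj, hsb⟩ := exists_lf_triple hM hK T
  set E := (normalizer (P : Set G)).comap T.π
  have := T.finite_A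
  have hb : ∀ z, T.π z = 1 → ∃ a, z = T.b a := fun z hz => by
    obtain ⟨a, ha⟩ := T.exists_b_of_π_eq (hz.trans (map_one _).symm)
    exact ⟨a, by rw [ha, mul_one]⟩
  have hc : ∀ z, T.π z = 1 → ∀ y, z * y = y * z := fun z hz y => by
    obtain ⟨a, rfl⟩ := hb z hz
    exact T.b_comm a y
  have hn : ∀ z, T.π z = 1 → z ^ Nat.card A = 1 := fun z hz => by
    obtain ⟨a, rfl⟩ := hb z hz
    rw [← map_pow, pow_card_eq_one', map_one]
  have hpn : p.Coprime (Nat.card A) := (Nat.Prime.coprime_iff_not_dvd hp.out).2 hA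
  have hcm : ∀ {x y : E}, (∃ m : ℕ, x ^ p ^ m = 1) → T.π x * T.π y = T.π y * T.π x →
      x * y = y * x := fun {x y} ⟨m, hm⟩ h =>
    Subtype.ext (comm_of_map_comm hc hn hpn (m := m) (congrArg Subtype.val hm) h)
  let R : Subgroup E :=
    { carrier := {x | T.π x ∈ P ∧ ∃ m : ℕ, x ^ p ^ m = 1}
      one_mem' := ⟨by simp, 0, by simp⟩
      mul_mem' := fun {x y} hx hy => ⟨by simpa using mul_mem hx.1 hy.1, by
        obtain ⟨m, hm⟩ := hx.2
        obtain ⟨l, hl⟩ := hy.2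
        exact ⟨m + l, by
          rw [(show Commute x y from hcm hx.2 (hab _ hx.1 _ hy.1)).mul_pow, pow_add, pow_mul, hm,
            mul_comm (p ^ m), pow_mul, hl]; simp⟩⟩
      inv_mem' := fun {x} hx => ⟨by simpa using hx.1, hx.2.imp fun m hm => by
        rw [inv_pow, hm, inv_one]⟩ }
  have hRn : R.Normal := ⟨fun x hx g => ⟨by
    simpa using (mem_normalizer_iff.1 g.2 _).1 hx.1, hx.2.imp fun m hm => by
      rw [conj_pow, hm]; simp⟩⟩
  have hR : IsPGroup p R := fun x => x.2.2.imp fun m hm => Subtype.ext hm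
  have hmap : R.map (T.π.comp E.subtype) = P := by
    refine le_antisymm (by rintro _ ⟨x, hx, rfl⟩; exact hx.1) fun u hu => ?_
    obtain ⟨x, rfl⟩ := T.π_surj u
    obtain ⟨m, hm⟩ := hP ⟨_, hu⟩
    obtain ⟨y, hy, hy'⟩ := exists_lift_pow hn hpn (m := m) (congrArg Subtype.val hm)
    exact ⟨⟨y, show T.π y ∈ normalizer (P : Set G) from hy ▸ le_normalizer hu⟩,
      ⟨show T.π y ∈ P from hy ▸ hu, m, Subtype.ext hy'⟩, hy⟩
  obtain ⟨s₁, h₁, t₁⟩ := exists_lf_br hM hR (fun x hx y hy => hcm hx.2 (hab _ hx.1 _ hy.1)) _ rfl hK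
    (isPrim_hat hM (isPBlock_singleton_of_not_dvd hM hK θ)) (hs.comp E.subtype)
  rw [hmap] at h₁ t₁
  refine ⟨s₁, h₁, fun γ n hγ hC => ?_, fun γ a hγ => ?_⟩
  · have h1 : (T.π.comp E.subtype) γ = n := by
      change T.π γ.1 = n
      rw [hγ, T.π_j]; rfl
    have := t₁ γ 1 (h1 ▸ n.2) (fun x hx => (hcm hx.2 (by
      rw [show T.π γ = n from h1]; exact hC _ hx.1)).symm) (by
        rw [h1, one_smul, ← hsj, ← hγ]; rfl)
    rwa [h1, one_smul] at this
  · have h1 : (T.π.comp E.subtype) γ = 1 := by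
      change T.π γ.1 = 1
      rw [hγ, T.π_b]
    have := t₁ γ _ (h1 ▸ one_mem K) (fun x _ => Subtype.ext (hc _ h1 _)) (by
        rw [h1, ← MonoidAlgebra.one_def, one_mul, ← hsb, ← hγ]; rfl)
    rwa [h1, ← MonoidAlgebra.one_def, one_mul] at this

/-- Dade's theorem: if `G = K N_G(P)` with `P` abelian then the triples of `θ` and of its
Glauberman correspondent are isomorphic. -/
theorem exists_triple_normalizer (hM : IsPModular p M) {K : Subgroup G} [hKn : K.Normal]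
    (hK : ¬ p ∣ Nat.card K) {θ : IrrCharacter K} (T : CTriple.{w} K.subtype (θ : K → ℂ) ι lam)
    (hA : ¬ p ∣ Nat.card A) {P : Subgroup G} (hP : IsPGroup p P)
    (hab : ∀ x ∈ P, ∀ y ∈ P, x * y = y * x)
    (hKN : ∀ g : G, ∃ k ∈ K, k⁻¹ * g ∈ normalizer (P : Set G)) :
    ∃ η : IrrCharacter (K.subgroupOf (normalizer (P : Set G))),
      emb (normalizer (P : Set G)).subtype (hat M _ {η}) = br P (hat M K {θ}) ∧
      Nonempty (CTriple.{w} (K.subgroupOf (normalizer (P : Set G))).subtype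
        (η : K.subgroupOf (normalizer (P : Set G)) → ℂ) ι lam) := by
  obtain ⟨s₁, h₁, hj₁, hb₁⟩ := exists_lf_normalizer hM hK T hA hP hab
  let N := normalizer (P : Set G)
  let E := N.comap T.π
  let C := K.subgroupOf N
  set f := br P (hat M K {θ})
  have := T.finite_A
  have hinj := N.subtype_injective
  have hPK : P ≤ normalizer (K : Set G) := by rw [normalizer_eq_top]; exact le_top
  have hC : C.map N.subtype = K ⊓ centralizer (P : Set G) := by
    rw [subgroupOf_map_subtype]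
    exact le_antisymm (le_inf inf_le_left (inf_normalizer_le_centralizer_of_inf_eq_bot
      (inf_eq_bot_of_not_dvd_of_isPGroup hK hP) hPK))
      (inf_le_inf_left K (centralizer_le_normalizer _))
  have hCp : ¬ p ∣ Nat.card C := fun h => hK (h.trans (card_comap_dvd_of_injective K _ hinj))
  have hf : IsPrim (C.map N.subtype) (C.map N.subtype) f := by
    rw [hC]
    exact (isPrim_hat hM (isPBlock_singleton_of_not_dvd hM hK θ)).isPrim_br_coprime hM hK hP hPK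
      (fun x hx => by
        obtain ⟨γ, rfl⟩ := T.π_surj x
        obtain ⟨s, hs, -⟩ := exists_lf_triple hM hK T
        exact hs.stab γ)
  rw [← hC] at h₁
  obtain ⟨f', hf'⟩ := exists_emb_eq_of_map hinj hf.suppOn
  obtain ⟨η, rfl⟩ := ((isPrim_emb_iff hinj).1 (hf' ▸ hf)).exists_eq_hat_singleton hM hCp
  have hπE : ∀ g : N, ∃ γ : E, T.π γ = g := fun g => by
    obtain ⟨γ, hγ⟩ := T.π_surj g
    exact ⟨⟨γ, show T.π γ ∈ N from hγ ▸ g.2⟩, hγ⟩
  have hη : ∀ g : N, cjI g η = η := fun g => by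
    obtain ⟨γ, hγ⟩ := hπE g
    have h2 : g ∈ stabB ({η} : Set (IrrCharacter C)) := by
      rw [mem_stabB_iff_mem_stab hM (isPBlock_singleton_of_not_dvd hM hCp η),
        ← mem_stab_emb hinj, hf']
      exact (show T.π γ = N.subtype g from hγ) ▸ h₁.stab γ
    exact cjI_mem_of_mem_stabB h2 rfl
  obtain ⟨Q₂, _, _, A₂, lam₂, T₂, -, -, -, hA₂, -⟩ := exists_pPrime_triple C hCp hη
  obtain ⟨s₂, h₂, hj₂, hb₂⟩ := exists_lf_triple hM hCp T₂
  have h₂' := h₂.emb hinj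
  rw [hf'] at h₂'
  let Δ : Subgroup (E × T₂.Γ) := ((T.π.comp E.subtype).comp (MonoidHom.fst _ _)).eqLocus
    ((N.subtype.comp T₂.π).comp (MonoidHom.snd _ _))
  let p₁ : Δ →* E := (MonoidHom.fst _ _).comp Δ.subtype
  let p₂ : Δ →* T₂.Γ := (MonoidHom.snd _ _).comp Δ.subtype
  have hΔ : (N.subtype.comp T₂.π).comp p₂ = (T.π.comp E.subtype).comp p₁ :=
    MonoidHom.ext fun δ => δ.2.symm
  have hCp' : ¬ p ∣ Nat.card (C.map N.subtype) := by rwa [card_map_of_injective hinj]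
  obtain ⟨D⟩ := nonempty_md_kM hM hCp' hf
  obtain ⟨ν, hν⟩ := (h₁.comp p₁).exists_ratio (hΔ ▸ h₂'.comp p₂) D
  obtain ⟨ν', hν'⟩ := exists_teich hM ν
  have hf0 := hf.ne_zero
  have hs₂ : emb N.subtype (s₂ 1) = f := h₂'.one
  have hp₁ : Function.Surjective p₁ := fun γ => by
    obtain ⟨γ₂, hγ₂⟩ := T₂.π_surj ⟨T.π γ, γ.2⟩
    exact ⟨⟨(γ, γ₂), (congrArg Subtype.val hγ₂).symm⟩, rfl⟩
  let Θ : Δ → ℂ := fun δ => ν' δ * T₂.Θ (p₂ δ)
  have hΘ : IsCharacter Δ Θ := (isIrrCharacter_monoidHom ν').isCharacter.mul (T₂.isChar.comp p₂)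
  have hΘ1 : ∀ δ δ', p₁ δ = p₁ δ' → Θ δ = Θ δ' := fun δ δ' h => by
    have h3 : T₂.π (p₂ δ) = T₂.π (p₂ δ') :=
      Subtype.ext (δ.2.symm.trans ((congrArg (fun γ : E => T.π γ) h).trans δ'.2))
    obtain ⟨a, ha⟩ := T₂.exists_b_of_π_eq h3
    let d : Δ := ⟨(1, T₂.b a), by
      change T.π 1 = N.subtype (T₂.π (T₂.b a))
      simp⟩
    have h4 : δ = d * δ' := Subtype.ext (Prod.ext (h.trans (one_mul _).symm) ha)
    have h5 : f = (ν d : kM M) • emb N.subtype (s₂ (T₂.b a)) := h₁.one.symm.trans (hν d)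
    rw [hb₂, map_smul, hf', smul_smul] at h5
    have h6 : (ν d : kM M) * redM M (lam₂ a : ℂ)⁻¹ = 1 :=
      smul_left_injective _ hf0 (h5.symm.trans (one_smul _ _).symm)
    have h7 : (lam₂ a : ℂ) ^ Nat.card A₂ = 1 := by
      rw [← Units.val_pow_eq_pow_val, ← map_pow, pow_card_eq_one']; simp
    rw [redM_inv (vM_eq_one_of_pow_eq_one Nat.card_pos.ne' h7)] at h6
    have h8 := hν' d hA₂ h7 (eq_of_mul_inv_eq_one h6).symm
    simp only [Θ]
    rw [ha, T₂.Θ_b, h4, map_mul, Units.val_mul, h8]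
    field_simp
  let Θ' : E → ℂ := fun γ => Θ (Function.surjInv hp₁ γ)
  have hΘ' : ∀ δ, Θ' (p₁ δ) = Θ δ := fun δ => hΘ1 _ _ (Function.surjInv_eq hp₁ _)
  let j : C →* E := (T.j.comp ((N.subtype.comp C.subtype).codRestrict K fun c => c.2)).codRestrict E
    fun c => show T.π _ ∈ N by rw [MonoidHom.comp_apply, T.π_j]; exact c.1.2
  let b : A →* E := T.b.codRestrict E fun a => show T.π _ ∈ N by rw [T.π_b]; exact one_mem _
  refine ⟨η, hf', ⟨{
    Γ := E
    π := (T.π.comp E.subtype).codRestrict N fun γ => γ.2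
    q := T.q.comp E.subtype
    j := j
    b := b
    Θ := Θ'
    π_surj := fun g => (hπE g).imp fun γ h => Subtype.ext h
    q_surj := fun x => ?_
    i_inj := C.subtype_injective
    ι_inj := T.ι_inj
    π_j := fun c => Subtype.ext (T.π_j _)
    q_b := T.q_b
    range_j := le_antisymm (by rintro _ ⟨c, rfl⟩; exact T.q_j _) fun γ hγ => ?_
    range_b := le_antisymm (by rintro _ ⟨a, rfl⟩; exact Subtype.ext (T.π_b a)) fun γ hγ => ?_
    central := T.central
    isChar := (CTriple.isCharacter_comp_iff p₁ hp₁).1 (funext hΘ' ▸ hΘ)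
    irr := η.2
    Θ_j := fun c => ?_
    Θ_b := fun a γ => ?_ }⟩⟩
  · obtain ⟨γ, rfl⟩ := T.q_surj x
    obtain ⟨k, hk, h⟩ := hKN (T.π γ)
    exact ⟨⟨(T.j ⟨k, hk⟩)⁻¹ * γ, show T.π _ ∈ N by rwa [map_mul, map_inv, T.π_j]⟩, by simp⟩
  · obtain ⟨n, hn⟩ : γ.1 ∈ T.j.range := T.range_j ▸ hγ
    have h3 : (n : G) ∈ N := by
      have : T.π γ ∈ N := γ.2
      rwa [← hn, T.π_j] at this
    exact ⟨⟨⟨n, h3⟩, n.2⟩, Subtype.ext hn⟩
  · obtain ⟨a, ha⟩ : γ.1 ∈ T.b.range := T.range_b ▸ congrArg Subtype.val hγ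
    exact ⟨a, Subtype.ext ha⟩
  · let d : Δ := ⟨(j c, T₂.j c), (T.π_j _).trans (congrArg Subtype.val (T₂.π_j c)).symm⟩
    have h3 : ((c : N) : G) ∈ centralizer (P : Set G) := (hC.le ⟨c, c.2, rfl⟩).2
    have h4 : s₁ (j c) = (ν d : kM M) • emb N.subtype (s₂ (T₂.j c)) := hν d
    rw [hj₁ (j c) ⟨_, c.2⟩ rfl h3, hj₂, map_mul, emb_single, hf'] at h4
    have h5 : MonoidAlgebra.single ((c : N) : G) (1 : kM M) * f ≠ 0 := fun h => hf0 (by
      have := congrArg (MonoidAlgebra.single ((c : N) : G)⁻¹ (1 : kM M) * ·) h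
      simpa [← mul_assoc, ← MonoidAlgebra.one_def] using this)
    have h6 := hν' d (z := 1) hA (one_pow _) (redM_one.trans
      (smul_left_injective _ h5 ((one_smul _ _).trans h4)))
    rw [show j c = p₁ d from rfl, hΘ']
    change ν' d * T₂.Θ (T₂.j c) = _
    rw [h6, T₂.Θ_j, one_mul]
  · obtain ⟨δ, rfl⟩ := hp₁ γ
    let d : Δ := ⟨(b a, 1), (T.π_b a).trans (by simp)⟩
    have h4 : s₁ (b a) = (ν d : kM M) • emb N.subtype (s₂ 1) := hν d
    rw [hb₁ _ a rfl, hs₂] at h4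
    have h6 := hν' d hA (vM_lin_inv lam a) (smul_left_injective _ hf0 h4)
    rw [show b a = p₁ d from rfl, ← map_mul, hΘ', hΘ']
    change ν' (d * δ) * T₂.Θ (1 * p₂ δ) = _ * (ν' δ * _)
    rw [map_mul, Units.val_mul, h6, one_mul, mul_assoc]

end Cfsg.Lib.Dade
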